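import Mathlib

set_option autoImplicit false

namespace Cfsg.Agent.Lib.Helper12.AbPerm

theorem core_ineq (k n m : ℕ) : m * n ^ k * (k + 1) ^ (k + 1) ≤ (n + m) ^ (k + 1) * k ^ k := by
  rcases Nat.eq_zero_or_pos k with rfl | hk
  · simp
  rcases Nat.eq_zero_or_pos n with rfl | hn
  · simp [hk.ne']
  have hkR : (0 : ℝ) < k := by exact_mod_cast hk
  have hnR : (0 : ℝ) < n := by exact_mod_cast hn
  have hmR : (0 : ℝ) ≤ m := by exact_mod_cast Nat.zero_le m
  have hden : (0 : ℝ) < ((k : ℝ) + 1) * n := by positivity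
  obtain ⟨x, hx⟩ : ∃ x : ℝ, x = ((k : ℝ) * m - n) / (((k : ℝ) + 1) * n) := ⟨_, rfl⟩
  have hx2 : (-2 : ℝ) ≤ x := by
    rw [hx, le_div_iff₀ hden]
    nlinarith [mul_nonneg hkR.le hmR, mul_pos hkR hnR]
  have hB := one_add_mul_le_pow hx2 (k + 1)
  have h1 : 1 + ((k + 1 : ℕ) : ℝ) * x = (k : ℝ) * m / n := by
    rw [hx]; push_cast; field_simp; ring
  have h2 : 1 + x = (k : ℝ) * (n + m) / (((k : ℝ) + 1) * n) := by
    rw [hx]; field_simp; ring
  rw [h1, h2, div_pow, div_le_div_iff₀ hnR (by positivity)] at hB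
  have h3 : (k : ℝ) * n * ((m : ℝ) * n ^ k * ((k : ℝ) + 1) ^ (k + 1)) ≤
      (k : ℝ) * n * (((n : ℝ) + m) ^ (k + 1) * (k : ℝ) ^ k) := by
    calc (k : ℝ) * n * ((m : ℝ) * n ^ k * ((k : ℝ) + 1) ^ (k + 1))
        = (k : ℝ) * m * (((k : ℝ) + 1) * n) ^ (k + 1) := by rw [mul_pow, pow_succ (n : ℝ) k]; ring
      _ ≤ ((k : ℝ) * (n + m)) ^ (k + 1) * n := hB
      _ = (k : ℝ) * n * (((n : ℝ) + m) ^ (k + 1) * (k : ℝ) ^ k) := by
          rw [mul_pow, pow_succ (k : ℝ) k]; ring
  have h4 := le_of_mul_le_mul_left h3 (by positivity)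
  exact_mod_cast h4

def B (N k n : ℕ) : Prop := N * k ^ k ≤ n ^ k

theorem B_unit {N k n : ℕ} (h : B N k n) (m : ℕ) : B (m * N) (k + 1) (n + m) := by
  unfold B at *
  have hk : 0 < k ^ k := by
    rcases Nat.eq_zero_or_pos k with rfl | hk
    · simp
    · positivity
  have h1 := core_ineq k n m
  have h2 : m * N * (k + 1) ^ (k + 1) * k ^ k ≤ (n + m) ^ (k + 1) * k ^ k := by
    calc m * N * (k + 1) ^ (k + 1) * k ^ k = m * (N * k ^ k) * (k + 1) ^ (k + 1) := by ring
      _ ≤ m * n ^ k * (k + 1) ^ (k + 1) := by gcongr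
      _ ≤ _ := h1
  exact Nat.le_of_mul_le_mul_right h2 hk

theorem B_mono {N N' k n n' : ℕ} (h : B N k n) (hN : N' ≤ N) (hn : n ≤ n') : B N' k n' := by
  unfold B at *
  calc N' * k ^ k ≤ N * k ^ k := by gcongr
    _ ≤ n ^ k := h
    _ ≤ n' ^ k := by gcongr

theorem B_step : ∀ (s : ℕ) {N k n : ℕ} (m : ℕ), B N k n → 2 ^ (s + 1) ≤ m →
    B (m * N) (k + (s + 1)) (n + m) := by
  intro s
  induction s with
  | zero => intro N k n m h _; exact B_unit h m
  | succ s ih =>
    intro N k n m h hm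
    have h4 : 4 ≤ m := by
      have : 2 ^ 2 ≤ 2 ^ (s + 1 + 1) := Nat.pow_le_pow_right (by norm_num) (by omega)
      omega
    have hm' : 2 ^ (s + 1) ≤ (m + 1) / 2 := by
      rw [pow_succ] at hm
      omega
    have h1 := ih ((m + 1) / 2) h hm'
    have h2 := B_unit h1 2
    have h3 : k + (s + 1 + 1) = k + (s + 1) + 1 := by ring
    rw [h3]
    apply B_mono h2
    · have : m ≤ 2 * ((m + 1) / 2) := by omega
      calc m * N ≤ 2 * ((m + 1) / 2) * N := by gcongr
        _ = 2 * ((m + 1) / 2 * N) := by ring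
    · omega

open Subgroup

variable {Ω : Type*} [Fintype Ω] [DecidableEq Ω]

open Classical in
/-- points moved by `A` -/
noncomputable def mv (A : Subgroup (Equiv.Perm Ω)) : Finset Ω :=
  Finset.univ.filter (fun ω => ∃ a ∈ A, a ω ≠ ω)

/-- elements of order dividing `p` in an abelian group -/
def om (p : ℕ) (A : Subgroup (Equiv.Perm Ω)) (hab : ∀ x ∈ A, ∀ y ∈ A, x * y = y * x) :
    Subgroup (Equiv.Perm Ω) where
  carrier := {x | x ∈ A ∧ x ^ p = 1}
  mul_mem' := by
    rintro x y ⟨hx, hx1⟩ ⟨hy, hy1⟩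
    refine ⟨A.mul_mem hx hy, ?_⟩
    rw [(show Commute x y from hab x hx y hy).mul_pow, hx1, hy1, one_mul]
  one_mem' := ⟨A.one_mem, one_pow _⟩
  inv_mem' := by
    rintro x ⟨hx, hx1⟩
    exact ⟨A.inv_mem hx, by rw [inv_pow, hx1, inv_one]⟩

theorem main (p : ℕ) [hp : Fact p.Prime] : ∀ (c : ℕ) (A : Subgroup (Equiv.Perm Ω)), Nat.card A ≤ c →
    IsPGroup p A → ∀ (hab : ∀ x ∈ A, ∀ y ∈ A, x * y = y * x) (k : ℕ),
    Nat.card (om p A hab) = p ^ k → B (Nat.card A) k (mv A).card := by
  intro c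
  induction c with
  | zero =>
    intro A hA
    have := Nat.card_pos (α := A)
    omega
  | succ c ih =>
    intro A hc hA hab k hk
    by_cases hbot : A = ⊥
    · subst hbot
      have h1 : om p (⊥ : Subgroup (Equiv.Perm Ω)) hab = ⊥ := by
        rw [eq_bot_iff]; intro x hx; exact hx.1
      rw [h1, Subgroup.card_bot] at hk
      have hk0 : k = 0 := by
        by_contra h
        have := Nat.one_lt_pow h hp.out.one_lt
        omega
      subst hk0
      simp [B]
    -- an element of order p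
    have hnt : Nontrivial A := (Subgroup.nontrivial_iff_ne_bot A).2 hbot
    have hdvd : p ∣ Nat.card A := by
      obtain ⟨j, hj⟩ := IsPGroup.iff_card.1 hA
      have hj0 : j ≠ 0 := by
        rintro rfl
        rw [pow_zero] at hj
        have := Finite.one_lt_card (α := A)
        omega
      rw [hj]; exact dvd_pow_self p hj0
    obtain ⟨⟨w, hwA⟩, hw⟩ := exists_prime_orderOf_dvd_card' (G := A) p hdvd
    rw [Subgroup.orderOf_mk] at hw
    have hw1 : w ≠ 1 := by
      rintro rfl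
      rw [orderOf_one] at hw
      exact hp.out.one_lt.ne hw
    obtain ⟨ω, hω⟩ : ∃ ω, w ω ≠ ω := by
      by_contra hcon
      push Not at hcon
      exact hw1 (Equiv.ext hcon)
    obtain ⟨K, hK⟩ : ∃ K, K = A ⊓ MulAction.stabilizer (Equiv.Perm Ω) ω := ⟨_, rfl⟩
    have hKA : K ≤ A := hK ▸ inf_le_left
    have hKfix : ∀ x ∈ K, x ω = ω := by
      intro x hx
      rw [hK] at hx
      exact hx.2
    have hwK : w ∉ K := fun h => hω (hKfix w h)
    obtain ⟨m, hm⟩ : ∃ m, m = K.relIndex A := ⟨_, rfl⟩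
    have hcard : Nat.card A = m * Nat.card K := by
      have h1 := Subgroup.relIndex_mul_relIndex (⊥ : Subgroup (Equiv.Perm Ω)) K A bot_le hKA
      rw [Subgroup.relIndex_bot_left, Subgroup.relIndex_bot_left, ← hm] at h1
      rw [← h1, mul_comm]
    have hm0 : K.relIndex A ≠ 0 := (K.subgroupOf A).index_ne_zero_of_finite
    have hm1 : m ≠ 1 := by
      intro h
      rw [hm, Subgroup.relIndex_eq_one] at h
      exact hwK (h hwA)
    have hKlt : Nat.card K < Nat.card A := by
      rw [hcard]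
      have := Nat.card_pos (α := K)
      have hm2 : 2 ≤ m := by
        have : m ≠ 0 := hm ▸ hm0
        omega
      nlinarith
    have habK : ∀ x ∈ K, ∀ y ∈ K, x * y = y * x := fun x hx y hy => hab x (hKA hx) y (hKA hy)
    have hKp : IsPGroup p K := hA.to_le hKA
    have hWp : IsPGroup p (om p K habK) := hKp.to_le (fun x hx => hx.1)
    obtain ⟨k', hk'⟩ := IsPGroup.iff_card.1 hWp
    have hIH := ih K (by omega) hKp habK k' hk'
    -- ranks
    have hWW : om p K habK = om p A hab ⊓ K := by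
      ext x
      constructor
      · rintro ⟨h1, h2⟩; exact ⟨⟨hKA h1, h2⟩, h1⟩
      · rintro ⟨⟨_, h2⟩, h1⟩; exact ⟨h1, h2⟩
    have hWA : om p A hab ≤ A := fun x hx => hx.1
    obtain ⟨j, hj⟩ : ∃ j, j = K.relIndex (om p A hab) := ⟨_, rfl⟩
    have hjm : j ≤ m := by
      rw [hj, hm]; exact Subgroup.relIndex_le_of_le_right hWA hm0
    have hprod : p ^ k' * j = p ^ k := by
      have h1 := Subgroup.relIndex_mul_relIndex (⊥ : Subgroup (Equiv.Perm Ω)) (om p K habK)
        (om p A hab) bot_le (by rw [hWW]; exact inf_le_left)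
      rw [Subgroup.relIndex_bot_left, Subgroup.relIndex_bot_left, hk', hk, hWW,
        Subgroup.inf_relIndex_left, ← hj] at h1
      exact h1
    have hj1 : j ≠ 1 := by
      intro h
      rw [hj, Subgroup.relIndex_eq_one] at h
      exact hwK (h ⟨hwA, by rw [← hw, pow_orderOf_eq_one]⟩)
    obtain ⟨s, -, hs⟩ := (Nat.dvd_prime_pow hp.out).1 (Dvd.intro_left _ hprod : j ∣ p ^ k)
    have hs0 : s ≠ 0 := by
      rintro rfl
      exact hj1 (by rw [hs, pow_zero])
    have hks : k = k' + s := by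
      rw [hs, ← pow_add] at hprod
      exact (Nat.pow_right_injective hp.out.two_le hprod).symm
    obtain ⟨s', rfl⟩ : ∃ s', s = s' + 1 := ⟨s - 1, by omega⟩
    have h2m : 2 ^ (s' + 1) ≤ m := by
      calc 2 ^ (s' + 1) ≤ p ^ (s' + 1) := Nat.pow_le_pow_left hp.out.two_le _
        _ = j := hs.symm
        _ ≤ m := hjm
    have hstep := B_step s' m hIH h2m
    rw [hcard, hks]
    apply B_mono hstep le_rfl
    -- counting points
    have hstab : MulAction.stabilizer A ω = K.subgroupOf A := by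
      ext x
      rw [MulAction.mem_stabilizer_iff, Subgroup.mem_subgroupOf, hK, Subgroup.mem_inf,
        MulAction.mem_stabilizer_iff]
      constructor
      · intro h; exact ⟨x.2, h⟩
      · intro h; exact h.2
    have hmorb : m = (MulAction.orbit A ω).ncard := by
      rw [← MulAction.index_stabilizer, hstab, hm]; rfl
    classical
    rw [hmorb, Set.ncard_eq_toFinset_card', ← Finset.card_union_of_disjoint]
    · apply Finset.card_le_card
      intro x hx
      rw [Finset.mem_union] at hx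
      rcases hx with hx | hx
      · rw [mv, Finset.mem_filter] at hx ⊢
        obtain ⟨-, a, ha, hax⟩ := hx
        exact ⟨Finset.mem_univ _, a, hKA ha, hax⟩
      · rw [Set.mem_toFinset] at hx
        obtain ⟨a, rfl⟩ := hx
        rw [mv, Finset.mem_filter]
        refine ⟨Finset.mem_univ _, w, hwA, ?_⟩
        intro h
        apply hω
        have h1 : w ((a : Equiv.Perm Ω) ω) = (a : Equiv.Perm Ω) ω := h
        have h2 : (w * (a : Equiv.Perm Ω)) ω = (a : Equiv.Perm Ω) ω := h1
        rw [hab w hwA a a.2] at h2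
        exact (a : Equiv.Perm Ω).injective h2
    · rw [Finset.disjoint_left]
      intro x hx hx'
      rw [mv, Finset.mem_filter] at hx
      obtain ⟨-, b, hb, hbx⟩ := hx
      rw [Set.mem_toFinset] at hx'
      obtain ⟨a, rfl⟩ := hx'
      apply hbx
      have h2 : (b * (a : Equiv.Perm Ω)) ω = (a : Equiv.Perm Ω) ω := by
        rw [hab b (hKA hb) a a.2]
        change (a : Equiv.Perm Ω) (b ω) = _
        rw [hKfix b hb]
      exact h2

end Cfsg.Agent.Lib.Helper12.AbPerm
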