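import Cfsg.Agent.Lib.Helper12.Orbit

/-!
Products over orbits: right translations by elements normalizing a point stabilizer; evaluation of the
transfer at a `p`-element through its fixed cosets.
-/

set_option autoImplicit false
set_option linter.unusedSectionVars false

namespace Cfsg.Agent.Lib.Helper12

open Finset
open scoped Classical

section orbit
variable {E Ω A : Type*} [Group E] [MulAction E Ω] [Fintype Ω] [CommGroup A]

theorem prod_eq_one_of_orbits (Φ : Ω → A) :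
    ∀ s : Finset Ω, (∀ a : E, ∀ q ∈ s, a • q ∈ s) →
      (∀ q₀ ∈ s, ∏ x ∈ univ.filter (fun q => q ∈ MulAction.orbit E q₀), Φ x = 1) →
      ∏ q ∈ s, Φ q = 1 := by
  intro s
  induction' hn : s.card using Nat.strong_induction_on with n ih generalizing s
  intro hinv hO
  rcases s.eq_empty_or_nonempty with rfl | ⟨q₀, hq₀⟩
  · simp
  set O := univ.filter (fun q => q ∈ MulAction.orbit E q₀) with hOdef
  have hOs : O ⊆ s := by
    intro x hx
    obtain ⟨a, rfl⟩ := (mem_filter.mp hx).2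
    exact hinv a q₀ hq₀
  have hq₀O : q₀ ∈ O := mem_filter.mpr ⟨mem_univ _, MulAction.mem_orbit_self q₀⟩
  have hcard : (s \ O).card < n := by
    rw [← hn]
    exact card_lt_card (sdiff_ssubset hOs ⟨q₀, hq₀O⟩)
  have hrest : ∏ x ∈ s \ O, Φ x = 1 := by
    apply ih _ hcard (s \ O) rfl
    · intro a x hx
      obtain ⟨hxs, hxO⟩ := mem_sdiff.mp hx
      refine mem_sdiff.mpr ⟨hinv a x hxs, fun h => hxO ?_⟩
      obtain ⟨b, hb⟩ := (mem_filter.mp h).2
      refine mem_filter.mpr ⟨mem_univ _, ⟨a⁻¹ * b, ?_⟩⟩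
      have hb' : b • q₀ = a • x := hb
      show (a⁻¹ * b) • q₀ = x
      rw [mul_smul, hb', inv_smul_smul]
    · intro x hx; exact hO x (mem_sdiff.mp hx).1
  rw [← prod_sdiff hOs, hrest, hO q₀ hq₀, one_mul]

theorem prod_orbit_eq_one (p : ℕ) (Φ : Ω → A) (ω₁ : Ω) (y : E)
    (hy : ∀ d : E, d • ω₁ = ω₁ ↔ (y⁻¹ * d * y) • ω₁ = ω₁)
    (hper : ∀ j : ℕ, y ^ j • ω₁ = ω₁ → p ∣ j)
    (hΦ : ∀ β : E, ∏ j ∈ range p, Φ ((β * y ^ j) • ω₁) = 1) :
    ∏ ω ∈ univ.filter (fun q => q ∈ MulAction.orbit E ω₁), Φ ω = 1 := by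
  have hwd : ∀ β β' : E, β • ω₁ = β' • ω₁ ↔ (β * y) • ω₁ = (β' * y) • ω₁ := by
    intro β β'
    have e1 : β • ω₁ = β' • ω₁ ↔ (β'⁻¹ * β) • ω₁ = ω₁ := by
      rw [mul_smul, inv_smul_eq_iff]
    have e2 : (β * y) • ω₁ = (β' * y) • ω₁ ↔ (y⁻¹ * (β'⁻¹ * β) * y) • ω₁ = ω₁ := by
      have : y⁻¹ * (β'⁻¹ * β) * y = (β' * y)⁻¹ * (β * y) := by group
      rw [this, mul_smul (β' * y)⁻¹, inv_smul_eq_iff]
    rw [e1, e2]; exact hy _
  let f : Ω → Ω := fun ω => if h : ω ∈ MulAction.orbit E ω₁ then (h.choose * y) • ω₁ else ω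
  have hf : ∀ β : E, f (β • ω₁) = (β * y) • ω₁ := by
    intro β
    have h : β • ω₁ ∈ MulAction.orbit E ω₁ := ⟨β, rfl⟩
    show (if h : β • ω₁ ∈ MulAction.orbit E ω₁ then (h.choose * y) • ω₁ else β • ω₁) = _
    rw [dif_pos h]
    exact (hwd _ _).mp h.choose_spec
  have hf' : ∀ ω, ω ∉ MulAction.orbit E ω₁ → f ω = ω := fun ω h => dif_neg h
  have hinj : Function.Injective f := by
    intro a b hab
    by_cases ha : a ∈ MulAction.orbit E ω₁ <;> by_cases hb : b ∈ MulAction.orbit E ω₁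
    · obtain ⟨β, hβ⟩ := ha
      obtain ⟨β', hβ'⟩ := hb
      have hβ1 : β • ω₁ = a := hβ
      have hβ2 : β' • ω₁ = b := hβ'
      rw [← hβ1, ← hβ2, hf, hf] at hab
      rw [← hβ1, ← hβ2]
      exact (hwd _ _).mpr hab
    · obtain ⟨β, hβ⟩ := ha
      have hβ1 : β • ω₁ = a := hβ
      rw [← hβ1, hf, hf' b hb] at hab
      exact absurd ⟨β * y, hab⟩ hb
    · obtain ⟨β', hβ'⟩ := hb
      have hβ2 : β' • ω₁ = b := hβ'
      rw [← hβ2, hf, hf' a ha] at hab
      exact absurd ⟨β' * y, hab.symm⟩ ha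
    · rwa [hf' a ha, hf' b hb] at hab
  let σ : Equiv.Perm Ω := Equiv.ofBijective f (Finite.injective_iff_bijective.mp hinj)
  have hσ : ∀ q, σ • q = f q := fun q => rfl
  have hpow : ∀ (j : ℕ) (β : E), σ ^ j • (β • ω₁) = (β * y ^ j) • ω₁ := by
    intro j
    induction j with
    | zero => intro β; simp
    | succ j ih =>
      intro β
      rw [pow_succ', mul_smul, ih, hσ, hf, pow_succ, mul_assoc]
  apply prod_eq_one_of_cycles σ p Φ
  · intro q hq
    obtain ⟨β, hβ⟩ := (mem_filter.mp hq).2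
    have hβ1 : β • ω₁ = q := hβ
    rw [← hβ1, hσ, hf]
    exact mem_filter.mpr ⟨mem_univ _, ⟨β * y, rfl⟩⟩
  · intro q hq j hj
    obtain ⟨β, hβ⟩ := (mem_filter.mp hq).2
    have hβ1 : β • ω₁ = q := hβ
    rw [← hβ1, hpow, mul_smul] at hj
    exact hper j (smul_left_cancel β hj)
  · intro q hq
    obtain ⟨β, hβ⟩ := (mem_filter.mp hq).2
    have hβ1 : β • ω₁ = q := hβ
    rw [← hΦ β]
    apply prod_congr rfl
    intro j _
    rw [← hβ1, hpow]

end orbit

section transfer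
variable {G : Type*} [Group G] {A : Type*} [CommGroup A] (P : Subgroup G) (φ : P →* A)

/-- extension of `φ` by `1` outside `P`. -/
noncomputable def ext1 (g : G) : A := if h : g ∈ P then φ ⟨g, h⟩ else 1

theorem ext1_mem {g : G} (h : g ∈ P) : ext1 P φ g = φ ⟨g, h⟩ := dif_pos h
theorem ext1_not_mem {g : G} (h : g ∉ P) : ext1 P φ g = 1 := dif_neg h

theorem ext1_conj {h : G} (hh : h ∈ P) (g : G) : ext1 P φ (h⁻¹ * g * h) = ext1 P φ g := by
  by_cases hg : g ∈ P
  · have h1 : h⁻¹ * g * h ∈ P := P.mul_mem (P.mul_mem (P.inv_mem hh) hg) hh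
    rw [ext1_mem _ _ h1, ext1_mem _ _ hg]
    have : (⟨h⁻¹ * g * h, h1⟩ : P) = (⟨h, hh⟩ : P)⁻¹ * ⟨g, hg⟩ * ⟨h, hh⟩ := rfl
    rw [this, map_mul, map_mul, map_inv, mul_comm, mul_inv_cancel_left]
  · have h1 : h⁻¹ * g * h ∉ P := by
      intro hc
      apply hg
      have := P.mul_mem (P.mul_mem hh hc) (P.inv_mem hh)
      have e : h * (h⁻¹ * g * h) * h⁻¹ = g := by group
      rwa [e] at this
    rw [ext1_not_mem _ _ h1, ext1_not_mem _ _ hg]

/-- the contribution of a coset to the transfer of `u`, when it is fixed by `u`. -/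
noncomputable def fixFun (u : G) (ω : G ⧸ P) : A := ext1 P φ (ω.out⁻¹ * u * ω.out)

theorem fixFun_mk (u x : G) : fixFun P φ u (x : G ⧸ P) = ext1 P φ (x⁻¹ * u * x) := by
  obtain ⟨h, hh⟩ := QuotientGroup.mk_out_eq_mul P x
  show ext1 P φ ((x : G ⧸ P).out⁻¹ * u * (x : G ⧸ P).out) = _
  rw [hh, ← ext1_conj P φ h.2 (x⁻¹ * u * x)]
  congr 1; group

theorem smul_mk_eq_iff (u x : G) : u • (x : G ⧸ P) = (x : G ⧸ P) ↔ x⁻¹ * u * x ∈ P := by
  have : u • (x : G ⧸ P) = ((u * x : G) : G ⧸ P) := rfl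
  rw [this, eq_comm, QuotientGroup.eq, mul_assoc]

theorem fixFun_of_not_fixed {u : G} {ω : G ⧸ P} (h : u • ω ≠ ω) : fixFun P φ u ω = 1 := by
  induction ω using QuotientGroup.induction_on with
  | H x =>
    rw [fixFun_mk]
    apply ext1_not_mem
    intro hc
    exact h ((smul_mk_eq_iff P u x).mpr hc)

theorem transfer_eq_prod_fixFun [Finite G] {p : ℕ} [Fact p.Prime] [Fintype (G ⧸ P)] (u : G)
    (hu : ∃ k, orderOf u = p ^ k)
    (H1 : ∀ (g : G) (k : ℕ), p ∣ k → ext1 P φ (g⁻¹ * u ^ k * g) = 1) :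
    MonoidHom.transfer φ u = ∏ ω : G ⧸ P, fixFun P φ u ω := by
  have : Fintype (Quotient (MulAction.orbitRel (Subgroup.zpowers u) (G ⧸ P))) := Fintype.ofFinite _
  rw [MonoidHom.transfer_eq_prod_quotient_orbitRel_zpowers_quot]
  rw [← Finset.prod_fiberwise univ
    (fun ω => (Quotient.mk _ ω : Quotient (MulAction.orbitRel (Subgroup.zpowers u) (G ⧸ P))))
    (fixFun P φ u)]
  apply Finset.prod_congr rfl
  intro q _
  rw [← ext1_mem P φ]
  have hrel : ∀ ω : G ⧸ P, (Quotient.mk _ ω : Quotient (MulAction.orbitRel (Subgroup.zpowers u) (G ⧸ P))) = q →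
      ∃ k : ℤ, ω = u ^ k • q.out := by
    intro ω hω
    have h1 : (MulAction.orbitRel (Subgroup.zpowers u) (G ⧸ P)) ω q.out := by
      apply Quotient.exact
      rw [Quotient.out_eq, hω]
    rw [MulAction.orbitRel_apply] at h1
    obtain ⟨⟨z, k, hk⟩, hz⟩ := h1
    refine ⟨k, ?_⟩
    rw [← hz]
    show z • q.out = _
    rw [← hk]
  by_cases hr : Function.minimalPeriod (u • ·) q.out = 1
  · have hfix : u • q.out = q.out := Function.minimalPeriod_eq_one_iff_isFixedPt.mp hr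
    have hfil : univ.filter (fun ω : G ⧸ P =>
        (Quotient.mk _ ω : Quotient (MulAction.orbitRel (Subgroup.zpowers u) (G ⧸ P))) = q) = {q.out} := by
      ext ω
      simp only [mem_filter, mem_univ, true_and, mem_singleton]
      constructor
      · intro hω
        obtain ⟨k, hk⟩ := hrel ω hω
        rw [hk, MulAction.zpow_smul_eq_iff_minimalPeriod_dvd, hr]
        simp
      · rintro rfl
        exact Quotient.out_eq q
    rw [hfil, prod_singleton, hr, pow_one]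
    rfl
  · have hdvd : p ∣ Function.minimalPeriod (u • ·) q.out := by
      obtain ⟨k, hk⟩ := hu
      have h1 : Function.minimalPeriod (u • ·) q.out ∣ p ^ k := by
        rw [← MulAction.pow_smul_eq_iff_minimalPeriod_dvd, ← hk, pow_orderOf_eq_one, one_smul]
      obtain ⟨j, _, hj⟩ := (Nat.dvd_prime_pow Fact.out).mp h1
      rw [hj]
      rcases Nat.eq_zero_or_pos j with rfl | hpos
      · rw [hj, pow_zero] at hr; exact absurd rfl hr
      · exact dvd_pow_self p hpos.ne'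
    rw [H1 _ _ hdvd]
    symm
    apply Finset.prod_eq_one
    intro ω hω
    obtain ⟨k, hk⟩ := hrel ω (mem_filter.mp hω).2
    apply fixFun_of_not_fixed
    intro hc
    apply hr
    rw [Function.minimalPeriod_eq_one_iff_isFixedPt]
    show u • q.out = q.out
    have h2 : q.out = u ^ (-k) • ω := by rw [hk, ← mul_smul, ← zpow_add]; simp
    rw [h2, ← mul_smul, ← zpow_one_add, add_comm, zpow_add_one, mul_smul, hc]

end transfer

end Cfsg.Agent.Lib.Helper12
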