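import Mathlib
import Cfsg.Agent.Lib.Helper1.CoprimeSylow

set_option autoImplicit false

namespace Cfsg.Agent.Lib.Helper12.Mazurov
open Subgroup Cfsg.Agent.Lib.Helper1

variable {G : Type*} [Group G]

theorem norm_aux {V : Type*} [CommGroup V] (A : Subgroup G) (φ : G → V)
    (hφ : ∀ x ∈ A, ∀ y ∈ A, φ (x * y) = φ x * φ y)
    (h : G) (hhA : h ∈ normalizer (A : Set G)) (a : G) (ha : a ∈ A) (k : ℕ) :
    ((a * h) ^ k * (h ^ k)⁻¹ ∈ A) ∧ ∀ g ∈ normalizer (A : Set G),
      φ (g * ((a * h) ^ k * (h ^ k)⁻¹) * g⁻¹) =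
        ∏ i ∈ Finset.range k, φ (g * (h ^ i * a * (h ^ i)⁻¹) * g⁻¹) := by
  have hφ1 : φ 1 = 1 := by
    have := hφ 1 A.one_mem 1 A.one_mem
    simpa using this
  induction k with
  | zero =>
    refine ⟨by simp, fun g _ => by simp [hφ1]⟩
  | succ k ih =>
    have hid : (a * h) ^ (k + 1) * (h ^ (k + 1))⁻¹ =
        ((a * h) ^ k * (h ^ k)⁻¹) * (h ^ k * a * (h ^ k)⁻¹) := by
      rw [pow_succ, pow_succ]
      generalize (a * h) ^ k = u
      generalize h ^ k = w
      group
    have hw : h ^ k * a * (h ^ k)⁻¹ ∈ A :=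
      conj_mem_of_mem_normalizer ((normalizer (A : Set G)).pow_mem hhA k) ha
    refine ⟨by rw [hid]; exact A.mul_mem ih.1 hw, fun g hg => ?_⟩
    rw [hid, Finset.prod_range_succ, ← ih.2 g hg,
      ← hφ _ (conj_mem_of_mem_normalizer hg ih.1) _ (conj_mem_of_mem_normalizer hg hw)]
    congr 1
    group

theorem norm_lemma [Finite G] {V : Type*} [CommGroup V] [Finite V] (A R : Subgroup G) (φ : G → V)
    (hφ : ∀ x ∈ A, ∀ y ∈ A, φ (x * y) = φ x * φ y)
    (h : G) (m : ℕ)
    (hRA : R ≤ normalizer (A : Set G)) (hhA : h ∈ normalizer (A : Set G))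
    (hhR : h ∈ normalizer (R : Set G))
    (hfpf : ∀ i, 0 < i → i < m + 1 → ∀ r ∈ R, h ^ i * r = r * h ^ i → r = 1)
    (hnorm : ∀ a ∈ A, (a * h) ^ (m + 1) = h ^ (m + 1))
    (hcop : (Nat.card V).Coprime (Nat.card R)) :
    ∀ s ∈ R, ∀ a ∈ A, φ (s * a * s⁻¹) = φ a := by
  classical
  have := Fintype.ofFinite R
  have hφ1 : φ 1 = 1 := by
    have := hφ 1 A.one_mem 1 A.one_mem
    simpa using this
  have E1 : ∀ g ∈ normalizer (A : Set G), ∀ a ∈ A,
      ∏ i ∈ Finset.range (m + 1), φ (g * (h ^ i * a * (h ^ i)⁻¹) * g⁻¹) = 1 := by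
    intro g hg a ha
    rw [← (norm_aux A φ hφ h hhA a ha (m + 1)).2 g hg, hnorm a ha]
    simp [hφ1]
  have S2 : ∀ i, i < m → ∀ a : G, ∏ r : R, φ ((r : G) * (h ^ (i + 1) * a * (h ^ (i + 1))⁻¹) * (r : G)⁻¹) =
      ∏ r : R, φ ((r : G)⁻¹ * (h ^ (i + 1) * ((r : G) * a * (r : G)⁻¹) * (h ^ (i + 1))⁻¹) * (r : G)⁻¹⁻¹) := by
    intro i hi a
    obtain ⟨w, hw⟩ : ∃ w, w = h ^ (i + 1) := ⟨_, rfl⟩
    have hwR : w ∈ normalizer (R : Set G) := hw ▸ (normalizer (R : Set G)).pow_mem hhR _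
    have hwf : ∀ r ∈ R, w * r = r * w → r = 1 := by
      intro r hr hc
      exact hfpf (i + 1) (by omega) (by omega) r hr (hw ▸ hc)
    rw [← hw]
    let σ : R → R := fun r => ⟨(r : G)⁻¹ * (w * r * w⁻¹),
      R.mul_mem (R.inv_mem r.2) (conj_mem_of_mem_normalizer hwR r.2)⟩
    have hσ : Function.Bijective σ := by
      rw [← Finite.injective_iff_bijective]
      intro r s hrs
      have h1 : (r : G)⁻¹ * (w * r * w⁻¹) = (s : G)⁻¹ * (w * s * w⁻¹) := congrArg Subtype.val hrs
      have h2 : w * ((s : G) * (r : G)⁻¹) = ((s : G) * (r : G)⁻¹) * w := by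
        have h3 : w * s * w⁻¹ = (s : G) * ((r : G)⁻¹ * (w * r * w⁻¹)) := by rw [h1]; group
        calc w * ((s : G) * (r : G)⁻¹) = (w * s * w⁻¹) * (w * (r : G)⁻¹) := by group
          _ = ((s : G) * ((r : G)⁻¹ * (w * r * w⁻¹))) * (w * (r : G)⁻¹) := by rw [h3]
          _ = ((s : G) * (r : G)⁻¹) * w := by group
      have h4 := hwf _ (R.mul_mem s.2 (R.inv_mem r.2)) h2
      apply Subtype.ext
      exact (mul_inv_eq_one.1 h4).symm
    rw [← hσ.prod_comp (fun r : R => φ ((r : G) * (w * a * w⁻¹) * (r : G)⁻¹))]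
    apply Finset.prod_congr rfl
    intro r _
    congr 1
    change (r : G)⁻¹ * (w * r * w⁻¹) * (w * a * w⁻¹) * ((r : G)⁻¹ * (w * r * w⁻¹))⁻¹ = _
    group
  have key : ∀ a ∈ A, ∏ r : R, φ ((r : G) * a * (r : G)⁻¹) = φ a ^ Nat.card R := by
    intro a ha
    have hd : ∏ r : R, ∏ i ∈ Finset.range (m + 1),
        φ ((r : G) * (h ^ i * a * (h ^ i)⁻¹) * (r : G)⁻¹) = 1 :=
      Finset.prod_eq_one (fun r _ => E1 r (hRA r.2) a ha)
    rw [Finset.prod_comm, Finset.prod_range_succ'] at hd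
    have h1 : ∏ i ∈ Finset.range m, ∏ r : R,
        φ ((r : G) * (h ^ (i + 1) * a * (h ^ (i + 1))⁻¹) * (r : G)⁻¹) = (φ a ^ Nat.card R)⁻¹ := by
      rw [Finset.prod_congr rfl (fun i hi => S2 i (Finset.mem_range.1 hi) a), Finset.prod_comm]
      have h2 : ∀ r : R, ∏ i ∈ Finset.range m,
          φ ((r : G)⁻¹ * (h ^ (i + 1) * ((r : G) * a * (r : G)⁻¹) * (h ^ (i + 1))⁻¹) * (r : G)⁻¹⁻¹)
            = (φ a)⁻¹ := by
        intro r
        have h3 := E1 (r : G)⁻¹ ((normalizer (A : Set G)).inv_mem (hRA r.2)) _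
          (conj_mem_of_mem_normalizer (hRA r.2) ha)
        rw [Finset.prod_range_succ'] at h3
        have h4 : (r : G)⁻¹ * (h ^ 0 * ((r : G) * a * (r : G)⁻¹) * (h ^ 0)⁻¹) * (r : G)⁻¹⁻¹ = a := by
          simp only [pow_zero]; group
        rw [h4] at h3
        exact eq_inv_of_mul_eq_one_left h3
      rw [Finset.prod_congr rfl (fun r _ => h2 r), Finset.prod_const, Finset.card_univ,
        Nat.card_eq_fintype_card, inv_pow]
    rw [h1] at hd
    have h5 : ∀ r : R, (r : G) * (h ^ 0 * a * (h ^ 0)⁻¹) * (r : G)⁻¹ = (r : G) * a * (r : G)⁻¹ := by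
      intro r; simp
    simp only [h5] at hd
    exact (inv_mul_eq_one.1 hd).symm
  intro s hs a ha
  have h1 := key a ha
  have h2 := key (s * a * s⁻¹) (conj_mem_of_mem_normalizer (hRA hs) ha)
  have h3 : ∏ r : R, φ ((r : G) * (s * a * s⁻¹) * (r : G)⁻¹) = ∏ r : R, φ ((r : G) * a * (r : G)⁻¹) := by
    rw [← Equiv.prod_comp (Equiv.mulRight (⟨s, hs⟩ : R)) (fun r : R => φ ((r : G) * a * (r : G)⁻¹))]
    apply Finset.prod_congr rfl
    intro r _
    congr 1
    change _ = (r : G) * s * a * ((r : G) * s)⁻¹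
    group
  rw [h3, h1] at h2
  exact ((powCoprime hcop).injective h2).symm

theorem mem_normalizer_commutator {A : Subgroup G} {g : G} (hg : g ∈ normalizer (A : Set G)) :
    g ∈ normalizer ((⁅A, A⁆ : Subgroup G) : Set G) := by
  rw [← conj_smul_eq_self_iff] at hg ⊢
  rw [conj_smul_eq_map] at hg ⊢
  rw [Subgroup.map_commutator, hg]

theorem centralizes_of_norm [Finite G] (R : Subgroup G) (h : G) (m : ℕ)
    (hhR : h ∈ normalizer (R : Set G))
    (hfpf : ∀ i, 0 < i → i < m + 1 → ∀ r ∈ R, h ^ i * r = r * h ^ i → r = 1) :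
    ∀ (k : ℕ) (A : Subgroup G), Nat.card A ≤ k → Group.IsSolvable A →
      (Nat.card A).Coprime (Nat.card R) → R ≤ normalizer (A : Set G) →
      h ∈ normalizer (A : Set G) → (∀ a ∈ A, (a * h) ^ (m + 1) = h ^ (m + 1)) →
      R ≤ centralizer (A : Set G) := by
  intro k
  induction k with
  | zero =>
    intro A hk
    have := Nat.card_pos (α := A)
    omega
  | succ k ih =>
    intro A hk hsol hcop hRA hhA hnorm
    by_cases hA : A = ⊥
    · subst hA
      intro r _
      rw [mem_centralizer_iff]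
      intro x hx
      have : x = 1 := by simpa using hx
      subst this; simp
    have hnt : Nontrivial A := (Subgroup.nontrivial_iff_ne_bot A).2 hA
    have hlt : commutator A < ⊤ := Group.IsSolvable.commutator_lt_top_of_nontrivial A
    have hmap : (commutator A).map A.subtype = ⁅A, A⁆ := Subgroup.map_subtype_commutator A
    have hle : ⁅A, A⁆ ≤ A := by rw [← hmap]; exact Subgroup.map_subtype_le _
    have hcard : Nat.card (⁅A, A⁆ : Subgroup G) < Nat.card A := by
      rw [← hmap, Subgroup.card_map_of_injective A.subtype_injective]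
      have h1 := Subgroup.card_mul_index (commutator A)
      have h2 : (commutator A).index ≠ 1 := fun h => hlt.ne (Subgroup.index_eq_one.1 h)
      have h3 : (commutator A).index ≠ 0 := Subgroup.index_ne_zero_of_finite
      have h4 := Nat.card_pos (α := commutator A)
      nlinarith [Nat.two_le_iff _ |>.2 ⟨h3, h2⟩]
    have hIH : R ≤ centralizer ((⁅A, A⁆ : Subgroup G) : Set G) :=
      ih ⁅A, A⁆ (by omega) (solvable_of_le hle hsol)
        (Nat.Coprime.of_dvd_left (Subgroup.card_dvd_of_le hle) hcop)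
        (fun r hr => mem_normalizer_commutator (hRA hr)) (mem_normalizer_commutator hhA)
        (fun a ha => hnorm a (hle ha))
    classical
    let φ : G → Abelianization A := fun g => if hg : g ∈ A then Abelianization.of ⟨g, hg⟩ else 1
    have hφ : ∀ x ∈ A, ∀ y ∈ A, φ (x * y) = φ x * φ y := by
      intro x hx y hy
      simp only [φ, dif_pos hx, dif_pos hy, dif_pos (A.mul_mem hx hy)]
      rw [← map_mul]; rfl
    have hfin : Finite (Abelianization A) := by unfold Abelianization; infer_instance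
    have hcV : (Nat.card (Abelianization A)).Coprime (Nat.card R) := by
      apply Nat.Coprime.of_dvd_left _ hcop
      unfold Abelianization
      exact Subgroup.card_quotient_dvd_card _
    have hN := norm_lemma A R φ hφ h m hRA hhA hhR hfpf hnorm hcV
    intro s hs
    rw [mem_centralizer_iff]
    intro a ha
    have ha' : a ∈ A := ha
    have hsa := conj_mem_of_mem_normalizer (hRA hs) ha'
    have h1 := hN s hs a ha'
    simp only [φ, dif_pos ha', dif_pos hsa] at h1
    have hb : a⁻¹ * (s * a * s⁻¹) ∈ ⁅A, A⁆ := by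
      rw [← hmap]
      refine ⟨(⟨a, ha'⟩ : A)⁻¹ * ⟨s * a * s⁻¹, hsa⟩, ?_, rfl⟩
      rw [SetLike.mem_coe, ← Abelianization.ker_of, MonoidHom.mem_ker, map_mul, map_inv, h1]
      simp
    obtain ⟨b, hbdef⟩ : ∃ b, b = a⁻¹ * (s * a * s⁻¹) := ⟨_, rfl⟩
    rw [← hbdef] at hb
    have hsb : s * b = b * s := ((mem_centralizer_iff.1 (hIH hs)) b hb).symm
    have hsab : s * a * s⁻¹ = a * b := by rw [hbdef]; group
    have hpow : ∀ j : ℕ, s ^ j * a * (s ^ j)⁻¹ = a * b ^ j := by
      intro j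
      induction j with
      | zero => simp
      | succ j ihj =>
        have hsbj : s * b ^ j * s⁻¹ = b ^ j := by
          have : Commute s (b ^ j) := (show Commute s b from hsb).pow_right j
          rw [this.eq]; group
        calc s ^ (j + 1) * a * (s ^ (j + 1))⁻¹ = s * (s ^ j * a * (s ^ j)⁻¹) * s⁻¹ := by
              rw [pow_succ']; group
          _ = s * (a * b ^ j) * s⁻¹ := by rw [ihj]
          _ = (s * a * s⁻¹) * (s * b ^ j * s⁻¹) := by group
          _ = a * b ^ (j + 1) := by rw [hsab, hsbj, pow_succ', mul_assoc]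
    have h2 := hpow (orderOf s)
    rw [pow_orderOf_eq_one] at h2
    have h3 : b ^ orderOf s = 1 := by simpa using h2
    have h4 : orderOf b ∣ Nat.card R :=
      (orderOf_dvd_of_pow_eq_one h3).trans (Subgroup.orderOf_dvd_natCard R hs)
    have h5 : orderOf b ∣ Nat.card A := Subgroup.orderOf_dvd_natCard A (hle hb)
    have h6 : orderOf b = 1 := Nat.eq_one_of_dvd_coprimes hcop h5 h4
    have h7 : b = 1 := orderOf_eq_one_iff.1 h6
    rw [h7, mul_one] at hsab
    calc a * s = (s * a * s⁻¹) * s := by rw [hsab]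
      _ = s * a := by group

end Cfsg.Agent.Lib.Helper12.Mazurov
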