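import Cfsg.Agent.Lib.Helper12.Norm

/-! The norm equals the iterated difference, pointwise. -/

set_option autoImplicit false
set_option linter.unusedSectionVars false

namespace Cfsg.Agent.Lib.Helper12

open Finset

theorem norm_module_eq {p : ℕ} [Fact p.Prime] {N : Type*} [AddCommGroup N] [Module (ZMod p) N]
    (f : N →+ N) (v : N) :
    ∑ j ∈ range p, f^[j] v = (fun w => f w - w)^[p - 1] v := by
  let a : Module.End (ZMod p) N := f.toZModLinearMap p
  have key := LinearMap.congr_fun (geom_sum_eq_sub_one_pow a) v
  simp only [LinearMap.sum_apply, Module.End.pow_apply] at key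
  have h1 : (⇑a : N → N) = f := rfl
  have h2 : (⇑(a - 1) : N → N) = fun w => f w - w := rfl
  rw [h2, h1] at key
  exact key

theorem norm_addCommGroup_eq {p : ℕ} [Fact p.Prime] {N : Type*} [AddCommGroup N]
    (hexp : ∀ v : N, p • v = 0) (f : N →+ N) (v : N) :
    ∑ j ∈ range p, f^[j] v = (fun w => f w - w)^[p - 1] v :=
  @norm_module_eq p _ N _ (AddCommGroup.zmodModule hexp) f v

theorem norm_commGroup_eq {p : ℕ} [Fact p.Prime] {V : Type*} [CommGroup V] (hexp : ∀ v : V, v ^ p = 1)
    (α : V →* V) (v : V) :
    ∏ j ∈ range p, α^[j] v = (fun w => α w * w⁻¹)^[p - 1] v := by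
  have h2 : ∀ (v : V) (j : ℕ), (fun w : Additive V => (MonoidHom.toAdditive α) w - w)^[j] (Additive.ofMul v) =
      Additive.ofMul ((fun w => α w * w⁻¹)^[j] v) := by
    intro v j
    induction j with
    | zero => rfl
    | succ j ih =>
      rw [Function.iterate_succ_apply', ih, Function.iterate_succ_apply', ← div_eq_mul_inv, ofMul_div]
      rfl
  have h1 : ∀ j : ℕ, (⇑(MonoidHom.toAdditive α))^[j] (Additive.ofMul v) = Additive.ofMul (α^[j] v) := by
    intro j
    induction j with
    | zero => rfl
    | succ j ih => rw [Function.iterate_succ_apply', ih, Function.iterate_succ_apply']; rfl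
  have key := norm_addCommGroup_eq (p := p) (N := Additive V) (fun x => by
    show Additive.ofMul ((Additive.toMul x) ^ p) = 0
    rw [hexp]; rfl) (MonoidHom.toAdditive α) (Additive.ofMul v)
  simp only [h1] at key
  rw [← ofMul_prod, h2] at key
  exact Additive.ofMul.injective key

end Cfsg.Agent.Lib.Helper12
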