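import Cfsg.Prelude.Def_SylowChains
import Cfsg.Agent.Lib.Helper12.Conj

/-!
Chains of Sylow subgroups: `ControlsSylowIntersections` in terms of `Relation.ReflTransGen`, and an
ambient reformulation of `IsFunctorRegular`.
-/

set_option autoImplicit false
set_option linter.unusedSectionVars false
open Cfsg

namespace Cfsg.Agent.Lib.Helper12

section chains
variable {α : Type*}

theorem exists_fin_chain {r : α → α → Prop} {a b : α} (h : Relation.ReflTransGen r a b) :
    ∃ (n : ℕ) (c : Fin (n + 1) → α), c 0 = a ∧ c (Fin.last n) = b ∧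
      ∀ i : Fin n, r (c i.castSucc) (c i.succ) := by
  induction h with
  | refl => exact ⟨0, fun _ => a, rfl, rfl, fun i => i.elim0⟩
  | @tail b c _ hbc ih =>
    obtain ⟨n, d, h0, hl, hs⟩ := ih
    refine ⟨n + 1, Fin.snoc (α := fun _ => α) d c, ?_, ?_, ?_⟩
    · have h1 : (0 : Fin (n + 2)) = Fin.castSucc (0 : Fin (n + 1)) := rfl
      rw [h1, Fin.snoc_castSucc]; exact h0
    · exact Fin.snoc_last (α := fun _ => α) c d
    · intro i
      refine Fin.lastCases ?_ (fun j => ?_) i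
      · rw [Fin.snoc_castSucc, Fin.succ_last, Fin.snoc_last, hl]; exact hbc
      · rw [Fin.snoc_castSucc, Fin.succ_castSucc, Fin.snoc_castSucc]; exact hs j

theorem rtg_of_fin_chain {r : α → α → Prop} (n : ℕ) (c : Fin (n + 1) → α)
    (h : ∀ i : Fin n, r (c i.castSucc) (c i.succ)) : Relation.ReflTransGen r (c 0) (c (Fin.last n)) :=
  Fin.induction (motive := fun i => Relation.ReflTransGen r (c 0) (c i)) Relation.ReflTransGen.refl
    (fun i ih => ih.tail (h i)) (Fin.last n)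

theorem rtg_strengthen {r : α → α → Prop} {P : α → Prop} {a b : α} (h : Relation.ReflTransGen r a b)
    (ha : P a) (hP : ∀ a b, r a b → P b) :
    Relation.ReflTransGen (fun a b => P a ∧ r a b) a b ∧ P b := by
  induction h with
  | refl => exact ⟨Relation.ReflTransGen.refl, ha⟩
  | @tail b c _ hbc ih => exact ⟨ih.1.tail ⟨ih.2, hbc⟩, hP _ _ hbc⟩

theorem rtg_lift {β : Type*} {r : α → α → Prop} {q : β → β → Prop} (φ : α → β)
    (h : ∀ a b, r a b → q (φ a) (φ b)) {a b : α} (hab : Relation.ReflTransGen r a b) :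
    Relation.ReflTransGen q (φ a) (φ b) := by
  induction hab with
  | refl => exact Relation.ReflTransGen.refl
  | @tail b c _ hbc ih => exact ih.tail (h _ _ hbc)

end chains

section general
variable {H : Type*} [Group H] [Finite H] {p : ℕ} [Fact p.Prime]

theorem mem_sylowMembers_iff {𝓕 : Set (Subgroup H)} {S X : Subgroup H} :
    X ∈ sylowMembers p 𝓕 S ↔ X ∈ 𝓕 ∧ IsSylIn p (S ⊓ X) X := by
  constructor
  · rintro ⟨h1, Y, hY⟩
    exact ⟨h1, hY ▸ isSylIn_of_sylow Y⟩
  · rintro ⟨h1, h2⟩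
    refine ⟨h1, h2.toSylow, ?_⟩
    rw [h2.coe_toSylow, Subgroup.subgroupOf_map_subtype, inf_assoc, inf_idem]

/-- one step of a chain as in `ControlsSylowIntersections`. -/
def SStep (p : ℕ) (𝓕 : Set (Subgroup H)) (D : Subgroup H) (S' S'' : Sylow p H) : Prop :=
  ∃ (X : Subgroup H) (x : H), X ∈ sylowMembers p 𝓕 (S' : Subgroup H) ∧
    X ∈ sylowMembers p 𝓕 (S'' : Subgroup H) ∧ x ∈ X ∧
    subgroupConjRight x (S'' : Subgroup H) = (S' : Subgroup H) ∧ D ≤ (S'' : Subgroup H) ⊓ X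

theorem controls_iff_rtg {𝓕 : Set (Subgroup H)} : ControlsSylowIntersections p 𝓕 ↔
    ∀ S T : Sylow p H, S ≠ T → (S : Subgroup H) ⊓ (T : Subgroup H) ≠ ⊥ →
      Relation.ReflTransGen (SStep p 𝓕 ((S : Subgroup H) ⊓ (T : Subgroup H))) S T := by
  constructor
  · intro h S T hne hint
    obtain ⟨n, c, X, x, h0, hl, hall⟩ := h S T hne hint
    have := rtg_of_fin_chain (r := SStep p 𝓕 ((S : Subgroup H) ⊓ (T : Subgroup H))) n c
      (fun i => ⟨X i, x i, hall i⟩)
    rwa [h0, hl] at this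
  · intro h S T hne hint
    obtain ⟨n, c, h0, hl, hs⟩ := exists_fin_chain (h S T hne hint)
    choose X x hX using hs
    exact ⟨n, c, X, x, h0, hl, hX⟩

end general

section functor
variable {G : Type*} [Group G] [Finite G] {p : ℕ} [Fact p.Prime]
  {f : Subgroup G → Set (Subgroup G)}

/-- two `p`-subgroups share a member of `f`. -/
def FEdge (f : Subgroup G → Set (Subgroup G)) (A B : Subgroup G) : Prop := ∃ F ∈ f A, F ∈ f B

theorem FEdge.symm {A B : Subgroup G} (h : FEdge f A B) : FEdge f B A := by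
  obtain ⟨F, h1, h2⟩ := h
  exact ⟨F, h2, h1⟩

theorem FEdge.cj (hf : IsNormalizerFunctor p f) {A B : Subgroup G} (hA : IsPGroup p A)
    (hB : IsPGroup p B) (h : FEdge f A B) (g : G) : FEdge f (cj g A) (cj g B) := by
  obtain ⟨F, h1, h2⟩ := h
  refine ⟨Helper12.cj g F, ?_, ?_⟩
  · rw [(hf A hA).2 g]; exact ⟨F, h1, rfl⟩
  · rw [(hf B hB).2 g]; exact ⟨F, h2, rfl⟩

/-- ambient step. -/
def AStep (p : ℕ) (f : Subgroup G → Set (Subgroup G)) (M D A B : Subgroup G) : Prop :=
  IsSylIn p A M ∧ IsSylIn p B M ∧ D ≤ A ∧ D ≤ B ∧ FEdge f A B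

theorem AStep.cj (hf : IsNormalizerFunctor p f) {M D A B : Subgroup G} (h : AStep p f M D A B) (g : G) :
    AStep p f (cj g M) (cj g D) (cj g A) (cj g B) :=
  ⟨h.1.cj g, h.2.1.cj g, cj_mono h.2.2.1, cj_mono h.2.2.2.1, h.2.2.2.2.cj hf h.1.2.1 h.2.1.2.1 g⟩

theorem AStep.mono {M D D' A B : Subgroup G} (h : AStep p f M D A B) (hD : D' ≤ D) :
    AStep p f M D' A B :=
  ⟨h.1, h.2.1, hD.trans h.2.2.1, hD.trans h.2.2.2.1, h.2.2.2.2⟩

theorem IsSylIn.to_top {S M A : Subgroup G} (hS : IsSylIn p S ⊤) (hSM : S ≤ M) (hA : IsSylIn p A M) :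
    IsSylIn p A ⊤ := by
  obtain ⟨x, _, hx⟩ := hA.exists_conj_eq (hS.of_le hSM le_top)
  have := hS.cj x
  rwa [hx, cj_top] at this

theorem AStep.to_top {S M D A B : Subgroup G} (hS : IsSylIn p S ⊤) (hSM : S ≤ M)
    (h : AStep p f M D A B) : AStep p f ⊤ D A B :=
  ⟨hS.to_top hSM h.1, hS.to_top hSM h.2.1, h.2.2.1, h.2.2.2.1, h.2.2.2.2⟩

theorem map_cj_subtype {M : Subgroup G} (y : M) (P : Subgroup M) :
    (cj y P).map M.subtype = cj (y : G) (P.map M.subtype) := by
  show (P.map (MulAut.conj y).toMonoidHom).map M.subtype =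
    (P.map M.subtype).map (MulAut.conj (y : G)).toMonoidHom
  rw [Subgroup.map_map, Subgroup.map_map]
  congr 1

theorem le_normalizer_of_mem_f (hf : IsNormalizerFunctor p f) {P F : Subgroup G} (hP : IsPGroup p P)
    (hF : F ∈ f P) : P ≤ Subgroup.normalizer (F : Set G) :=
  Subgroup.le_normalizer.trans ((hf P hP).1 F hF).2

theorem mem_f_of_syl (hf : IsNormalizerFunctor p f) {M : Subgroup G} (P S' : Sylow p M) {F : Subgroup G}
    (hF : F ∈ f ((P : Subgroup M).map M.subtype))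
    (hs : IsSylIn p ((S' : Subgroup M) ⊓ (M ⊓ Subgroup.normalizer (F : Set G)).subgroupOf M)
      ((M ⊓ Subgroup.normalizer (F : Set G)).subgroupOf M)) :
    F ∈ f ((S' : Subgroup M).map M.subtype) := by
  obtain ⟨X', hX'⟩ : ∃ X', X' = (M ⊓ Subgroup.normalizer (F : Set G)).subgroupOf M := ⟨_, rfl⟩
  rw [← hX'] at hs
  have hPp : IsPGroup p ((P : Subgroup M).map M.subtype) := P.2.map _
  have hPX : (P : Subgroup M) ≤ X' := by
    intro y hy
    rw [hX', Subgroup.mem_subgroupOf]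
    exact ⟨y.2, le_normalizer_of_mem_f hf hPp hF (Subgroup.mem_map_of_mem _ hy)⟩
  have c1 : Nat.card (P : Subgroup M) ≤ Nat.card ((S' : Subgroup M) ⊓ X' : Subgroup M) :=
    hs.card_le hPX P.2
  have c2 : Nat.card (S' : Subgroup M) ≤ Nat.card (P : Subgroup M) :=
    (isSylIn_top P).card_le le_top S'.2
  have hSX : (S' : Subgroup M) ⊓ X' = S' := Subgroup.eq_of_le_of_card_ge inf_le_left (c2.trans c1)
  have hSX' : (S' : Subgroup M) ≤ X' := inf_eq_left.1 hSX
  obtain ⟨y, hyX, hy⟩ := ((isSylIn_top S').of_le hSX' le_top).exists_conj_eq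
    ((isSylIn_top P).of_le hPX le_top)
  rw [← hy, map_cj_subtype, (hf _ hPp).2 (y : G)]
  refine ⟨F, hF, ?_⟩
  rw [hX', Subgroup.mem_subgroupOf] at hyX
  exact cj_eq_of_mem_normalizer hyX.2

theorem step_imp (hf : IsNormalizerFunctor p f) {M : Subgroup G} {D' : Subgroup M} {S' S'' : Sylow p M}
    (h : SStep p ((fun X : Subgroup G => X.subgroupOf M) '' functorFamily p f M) D' S' S'') :
    D' ≤ S'' ∧ FEdge f ((S' : Subgroup M).map M.subtype) ((S'' : Subgroup M).map M.subtype) := by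
  obtain ⟨X', x, h1, h2, hx, hc, hD⟩ := h
  rw [mem_sylowMembers_iff] at h1 h2
  obtain ⟨⟨X, ⟨P, F, hF, rfl⟩, rfl⟩, hs1⟩ := h1
  exact ⟨hD.trans inf_le_left, F, mem_f_of_syl hf P S' hF hs1, mem_f_of_syl hf P S'' hF h2.2⟩

theorem step_of (hf : IsNormalizerFunctor p f) {M : Subgroup G} {D' : Subgroup M} {S' S'' : Sylow p M}
    (hD : D' ≤ S'')
    (h : FEdge f ((S' : Subgroup M).map M.subtype) ((S'' : Subgroup M).map M.subtype)) :
    SStep p ((fun X : Subgroup G => X.subgroupOf M) '' functorFamily p f M) D' S' S'' := by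
  obtain ⟨F, hF1, hF2⟩ := h
  obtain ⟨X', hX'⟩ : ∃ X', X' = (M ⊓ Subgroup.normalizer (F : Set G)).subgroupOf M := ⟨_, rfl⟩
  have hle : ∀ P : Sylow p M, F ∈ f ((P : Subgroup M).map M.subtype) → (P : Subgroup M) ≤ X' := by
    intro P hF y hy
    rw [hX', Subgroup.mem_subgroupOf]
    exact ⟨y.2, le_normalizer_of_mem_f hf (P.2.map _) hF (Subgroup.mem_map_of_mem _ hy)⟩
  have h1 := hle S' hF1
  have h2 := hle S'' hF2
  have s1 : IsSylIn p (S' : Subgroup M) X' := (isSylIn_top S').of_le h1 le_top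
  have s2 : IsSylIn p (S'' : Subgroup M) X' := (isSylIn_top S'').of_le h2 le_top
  obtain ⟨x, hxX, hx⟩ := s1.exists_conj_eq s2
  have hmem : X' ∈ (fun X : Subgroup G => X.subgroupOf M) '' functorFamily p f M :=
    ⟨_, ⟨S', F, hF1, rfl⟩, hX'.symm⟩
  refine ⟨X', x⁻¹, mem_sylowMembers_iff.2 ⟨hmem, by rwa [inf_eq_left.2 h1]⟩,
    mem_sylowMembers_iff.2 ⟨hmem, by rwa [inf_eq_left.2 h2]⟩, X'.inv_mem hxX, ?_, le_inf hD (hD.trans h2)⟩
  unfold subgroupConjRight
  rw [inv_inv]
  exact hx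

theorem map_toSylow {M A : Subgroup G} (hA : IsSylIn p A M) :
    ((hA.toSylow : Sylow p M) : Subgroup M).map M.subtype = A := by
  rw [hA.coe_toSylow, Subgroup.subgroupOf_map_subtype, inf_eq_left.2 hA.1]

theorem regular_imp (hf : IsNormalizerFunctor p f) {M : Subgroup G} (hM : IsFunctorRegular p f M)
    {A B D : Subgroup G} (hA : IsSylIn p A M) (hB : IsSylIn p B M) (hDA : D ≤ A) (hDB : D ≤ B)
    (hD : D ≠ ⊥) : Relation.ReflTransGen (AStep p f M D) A B := by
  by_cases hAB : A = B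
  · rw [hAB]
  have hne : hA.toSylow ≠ hB.toSylow := by
    intro h
    apply hAB
    rw [← map_toSylow hA, ← map_toSylow hB, h]
  have hDle : ∀ d ∈ D, ∀ hd : d ∈ M, (⟨d, hd⟩ : M) ∈
      ((hA.toSylow : Sylow p M) : Subgroup M) ⊓ ((hB.toSylow : Sylow p M) : Subgroup M) := by
    intro d hd hdM
    rw [hA.coe_toSylow, hB.coe_toSylow]
    exact ⟨Subgroup.mem_subgroupOf.2 (hDA hd), Subgroup.mem_subgroupOf.2 (hDB hd)⟩
  have hint : ((hA.toSylow : Sylow p M) : Subgroup M) ⊓ ((hB.toSylow : Sylow p M) : Subgroup M) ≠ ⊥ := by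
    intro h
    apply hD
    rw [eq_bot_iff]
    intro d hd
    have := hDle d hd (hA.1 (hDA hd))
    rw [h, Subgroup.mem_bot] at this
    rw [Subgroup.mem_bot]
    exact congrArg Subtype.val this
  have chain := (controls_iff_rtg.1 hM) hA.toSylow hB.toSylow hne hint
  have chain2 := (rtg_strengthen (P := fun S' : Sylow p M =>
    ((hA.toSylow : Sylow p M) : Subgroup M) ⊓ ((hB.toSylow : Sylow p M) : Subgroup M) ≤ S') chain inf_le_left
    (fun a b hab => (step_imp hf hab).1)).1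
  have := rtg_lift (q := AStep p f M D)
    (fun S' : Sylow p M => (S' : Subgroup M).map M.subtype) ?_ chain2
  · simp only [map_toSylow] at this
    exact this
  · intro a b hab
    have hle : ∀ c : Sylow p M, ((hA.toSylow : Sylow p M) : Subgroup M) ⊓
        ((hB.toSylow : Sylow p M) : Subgroup M) ≤ c → D ≤ (c : Subgroup M).map M.subtype := by
      intro c hc d hd
      exact ⟨⟨d, hA.1 (hDA hd)⟩, hc (hDle d hd _), rfl⟩
    exact ⟨isSylIn_of_sylow a, isSylIn_of_sylow b, hle a hab.1, hle b (step_imp hf hab.2).1,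
      (step_imp hf hab.2).2⟩

theorem lift_chain (hf : IsNormalizerFunctor p f) {M D A B : Subgroup G}
    (h : Relation.ReflTransGen (AStep p f M D) A B) (S : Sylow p M)
    (hS : (S : Subgroup M).map M.subtype = A) :
    ∃ T : Sylow p M, (T : Subgroup M).map M.subtype = B ∧ Relation.ReflTransGen
      (SStep p ((fun X : Subgroup G => X.subgroupOf M) '' functorFamily p f M) (D.subgroupOf M)) S T := by
  induction h with
  | refl => exact ⟨S, hS, Relation.ReflTransGen.refl⟩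
  | @tail b c _ hbc ih =>
    obtain ⟨Tb, hTb, hch⟩ := ih
    refine ⟨hbc.2.1.toSylow, map_toSylow _, hch.tail (step_of hf ?_ ?_)⟩
    · rw [hbc.2.1.coe_toSylow]
      exact Subgroup.comap_mono hbc.2.2.2.1
    · rw [hTb, map_toSylow]
      exact hbc.2.2.2.2

theorem regular_of (hf : IsNormalizerFunctor p f) {M : Subgroup G}
    (h : ∀ A B, IsSylIn p A M → IsSylIn p B M → A ≠ B → A ⊓ B ≠ ⊥ →
      Relation.ReflTransGen (AStep p f M (A ⊓ B)) A B) : IsFunctorRegular p f M := by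
  apply controls_iff_rtg.2
  intro S T hne hint
  have hinj : Function.Injective (Subgroup.map M.subtype) :=
    Subgroup.map_injective M.subtype_injective
  have h1 : (S : Subgroup M).map M.subtype ≠ (T : Subgroup M).map M.subtype := by
    intro h
    exact hne (Sylow.ext (hinj h))
  have h2 : (S : Subgroup M).map M.subtype ⊓ (T : Subgroup M).map M.subtype ≠ ⊥ := by
    rw [← Subgroup.map_inf _ _ _ M.subtype_injective]
    intro h
    apply hint
    apply hinj
    rw [h, Subgroup.map_bot]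
  obtain ⟨T', hT', hch⟩ := lift_chain hf (h _ _ (isSylIn_of_sylow S) (isSylIn_of_sylow T) h1 h2) S rfl
  have hTT : T' = T := Sylow.ext (hinj hT')
  rw [hTT] at hch
  have h3 : ((S : Subgroup M).map M.subtype ⊓ (T : Subgroup M).map M.subtype).subgroupOf M =
      (S : Subgroup M) ⊓ (T : Subgroup M) := by
    rw [← Subgroup.map_inf _ _ _ M.subtype_injective]
    exact Subgroup.comap_map_eq_self_of_injective M.subtype_injective _
  rwa [h3] at hch

end functor

end Cfsg.Agent.Lib.Helper12
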