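import Cfsg.Agent.Lib.Helper12.SylChain

/-!
Normalizers of the members of a functor together with the singular maximal `p`-locals control
Sylow intersections.
-/

set_option autoImplicit false
set_option linter.unusedSectionVars false
open Cfsg

namespace Cfsg.Agent.Lib.Helper12

variable {G : Type*} [Group G] [Finite G] {p : ℕ} [Fact p.Prime]

/-- symmetric ambient step for a family `𝓖`. -/
def EStep (p : ℕ) (𝓖 : Set (Subgroup G)) (D A B : Subgroup G) : Prop :=
  IsSylIn p A ⊤ ∧ IsSylIn p B ⊤ ∧ D ≤ A ∧ D ≤ B ∧ ∃ X ∈ 𝓖, D ≤ X ∧ IsSylIn p (A ⊓ X) X ∧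
    IsSylIn p (B ⊓ X) X ∧ ∃ x ∈ X, cj x B = A

theorem EStep.symm {𝓖 : Set (Subgroup G)} {D A B : Subgroup G} (h : EStep p 𝓖 D A B) :
    EStep p 𝓖 D B A := by
  obtain ⟨h1, h2, h3, h4, X, hX, h5, h6, h7, x, hx, hxe⟩ := h
  exact ⟨h2, h1, h4, h3, X, hX, h5, h7, h6, x⁻¹, X.inv_mem hx, (cj_eq_iff.1 hxe).symm⟩

theorem EStep.mono {𝓖 : Set (Subgroup G)} {D D' A B : Subgroup G} (h : EStep p 𝓖 D A B) (hD : D' ≤ D) :
    EStep p 𝓖 D' A B := by
  obtain ⟨h1, h2, h3, h4, X, hX, h5, h6⟩ := h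
  exact ⟨h1, h2, hD.trans h3, hD.trans h4, X, hX, hD.trans h5, h6⟩

theorem estep_of_le {𝓖 : Set (Subgroup G)} {D A B X : Subgroup G} (hX : X ∈ 𝓖) (hA : IsSylIn p A ⊤)
    (hB : IsSylIn p B ⊤) (hAX : A ≤ X) (hBX : B ≤ X) (hDA : D ≤ A) (hDB : D ≤ B) : EStep p 𝓖 D A B := by
  have s1 : IsSylIn p A X := hA.of_le hAX le_top
  have s2 : IsSylIn p B X := hB.of_le hBX le_top
  refine ⟨hA, hB, hDA, hDB, X, hX, hDA.trans hAX, by rwa [inf_eq_left.2 hAX], by rwa [inf_eq_left.2 hBX],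
    s1.exists_conj_eq s2⟩

theorem conn_symm {𝓖 : Set (Subgroup G)} {D A B : Subgroup G}
    (h : Relation.ReflTransGen (EStep p 𝓖 D) A B) : Relation.ReflTransGen (EStep p 𝓖 D) B A := by
  induction h with
  | refl => exact Relation.ReflTransGen.refl
  | @tail b c _ hbc ih => exact (Relation.ReflTransGen.single hbc.symm).trans ih

theorem lift_chainG {𝓖 : Set (Subgroup G)} {D A B : Subgroup G}
    (h : Relation.ReflTransGen (EStep p 𝓖 D) A B) (S : Sylow p G) (hS : (S : Subgroup G) = A) :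
    ∃ T : Sylow p G, (T : Subgroup G) = B ∧ Relation.ReflTransGen (SStep p 𝓖 D) S T := by
  induction h with
  | refl => exact ⟨S, hS, Relation.ReflTransGen.refl⟩
  | @tail b c _ hbc ih =>
    obtain ⟨Tb, hTb, hch⟩ := ih
    obtain ⟨h1, h2, h3, h4, X, hX, h5, h6, h7, x, hx, hxe⟩ := hbc
    refine ⟨IsPGroup.toSylow (P := c) h2.2.1 (by simpa [Subgroup.relIndex_top_right] using h2.2.2), rfl,
      hch.tail ⟨X, x⁻¹, mem_sylowMembers_iff.2 ⟨hX, by rw [hTb]; exact h6⟩,
        mem_sylowMembers_iff.2 ⟨hX, h7⟩, X.inv_mem hx, ?_, le_inf h4 h5⟩⟩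
    unfold subgroupConjRight
    rw [inv_inv, hTb]
    exact hxe

theorem exists_maximalPLocal_ge {L : Subgroup G} (hL : IsPLocal p L) :
    ∃ M, IsMaximalPLocal p M ∧ L ≤ M := by
  obtain ⟨M, hLM, hM⟩ := Set.Finite.exists_le_maximal (s := {N : Subgroup G | IsPLocal p N})
    (Set.toFinite _) hL
  exact ⟨M, ⟨hM.prop, fun N hN hle => le_antisymm (hM.2 hN hle) hle⟩, hLM⟩

theorem IsSylIn.card_eq {A B M : Subgroup G} (hA : IsSylIn p A M) (hB : IsSylIn p B M) :
    Nat.card A = Nat.card B :=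
  le_antisymm (hB.card_le hA.1 hA.2.1) (hA.card_le hB.1 hB.2.1)

theorem conn_main {f : Subgroup G → Set (Subgroup G)} (hf : IsNormalizerFunctor p f)
    (hf1 : ∀ P : Subgroup G, IsPGroup p ↥P → P ≠ ⊥ → ∀ F ∈ f P, F ≠ ⊥) (𝓖 : Set (Subgroup G))
    (h𝓖 : 𝓖 = functorFamily p f ⊤ ∪ {M | IsMaximalPLocal p M ∧ ¬ IsFunctorRegular p f M}) (n : ℕ) :
    ∀ D : Subgroup G, Nat.card G - Nat.card D = n → D ≠ ⊥ → ∀ A B, IsSylIn p A ⊤ → IsSylIn p B ⊤ →
      D ≤ A → D ≤ B → Relation.ReflTransGen (EStep p 𝓖 D) A B := by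
  induction n using Nat.strong_induction_on with
  | _ n IH =>
  intro D hn hD A B hA hB hDA hDB
  have IH' : ∀ D' A B : Subgroup G, D < D' → IsSylIn p A ⊤ → IsSylIn p B ⊤ → D' ≤ A → D' ≤ B →
      Relation.ReflTransGen (EStep p 𝓖 D) A B := by
    intro D' A B hlt hA hB h1 h2
    have hc := card_lt_card_of_lt hlt
    have hle : Nat.card D' ≤ Nat.card G := Subgroup.card_le_card_group D'
    have := IH (Nat.card G - Nat.card D') (by omega) D' rfl (ne_bot_of_gt hlt) A B hA hB h1 h2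
    exact rtg_lift (q := EStep p 𝓖 D) id (fun a b h => h.mono hlt.le) this
  have push : ∀ R S0 M' : Subgroup G, IsSylIn p S0 ⊤ → R < S0 → D ≤ R →
      Subgroup.normalizer (R : Set G) ≤ M' → ∃ S1, IsSylIn p S1 ⊤ ∧ IsSylIn p (S1 ⊓ M') M' ∧
        R < S1 ⊓ M' ∧ Relation.ReflTransGen (EStep p 𝓖 D) S0 S1 := by
    intro R S0 M' hS0 hlt hDR hN
    have hlt' := lt_inf_normalizer hS0.2.1 hlt
    have hNM : S0 ⊓ Subgroup.normalizer (R : Set G) ≤ M' := inf_le_right.trans hN
    obtain ⟨R1, hR1, hle1⟩ := exists_isSylIn_ge (p := p) hNM (hS0.2.1.to_le inf_le_left)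
    obtain ⟨S1, hS1, hle2⟩ := exists_isSylIn_ge (p := p) (le_top : R1 ≤ ⊤) hR1.2.1
    have hSM : S1 ⊓ M' = R1 :=
      (hR1.eq_of_le inf_le_right (hS1.2.1.to_le inf_le_left) (le_inf hle2 hR1.1)).symm
    refine ⟨S1, hS1, hSM ▸ hR1, hSM ▸ lt_of_lt_of_le hlt' hle1, ?_⟩
    exact IH' _ S0 S1 (lt_of_le_of_lt hDR hlt') hS0 hS1 inf_le_left (hle1.trans hle2)
  have Q : ∀ m : ℕ, ∀ M A B : Subgroup G, IsMaximalPLocal p M → IsSylIn p A ⊤ → IsSylIn p B ⊤ →
      IsSylIn p (A ⊓ M) M → IsSylIn p (B ⊓ M) M → D < A ⊓ M → D ≤ B ⊓ M →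
      Nat.card G - Nat.card (A ⊓ M : Subgroup G) = m → Relation.ReflTransGen (EStep p 𝓖 D) A B := by
    intro m
    induction m using Nat.strong_induction_on with
    | _ m IHm =>
    intro M A B hM hA hB hAM hBM hDA hDB hm
    by_cases hreg : IsFunctorRegular p f M
    · have chain := regular_imp hf hreg hAM hBM hDA.le hDB hD
      have key : ∀ R', Relation.ReflTransGen (AStep p f M D) (A ⊓ M) R' → ∀ S', IsSylIn p S' ⊤ →
          S' ⊓ M = R' → Relation.ReflTransGen (EStep p 𝓖 D) A S' := by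
        intro R' hch
        induction hch with
        | refl =>
          intro S' hS' hSM
          exact IH' (A ⊓ M) A S' hDA hA hS' inf_le_left (hSM ▸ inf_le_left)
        | @tail Rb Rc _ hbc ih =>
          intro S' hS' hSM
          obtain ⟨Sb, hSb, hRbSb⟩ := exists_isSylIn_ge (p := p) (le_top : Rb ≤ ⊤) hbc.1.2.1
          have hSbM : Sb ⊓ M = Rb :=
            (hbc.1.eq_of_le inf_le_right (hSb.2.1.to_le inf_le_left) (le_inf hRbSb hbc.1.1)).symm
          refine (ih Sb hSb hSbM).trans ?_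
          obtain ⟨F, hFb, hFc⟩ := hbc.2.2.2.2
          have hRcS : Rc ≤ S' := hSM ▸ inf_le_left
          have cbc : Nat.card Rb = Nat.card Rc := hbc.1.card_eq hbc.2.1
          have cSS : Nat.card Sb = Nat.card S' := hSb.card_eq hS'
          by_cases hcase : Rb = Sb
          · have hRc : Rc = S' := Subgroup.eq_of_le_of_card_ge hRcS (by rw [← cSS, ← hcase, cbc])
            rw [hcase] at hFb
            rw [hRc] at hFc
            apply Relation.ReflTransGen.single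
            refine estep_of_le (X := ⊤ ⊓ Subgroup.normalizer (F : Set G)) ?_ hSb hS'
              (le_inf le_top (le_normalizer_of_mem_f hf hSb.2.1 hFb))
              (le_inf le_top (le_normalizer_of_mem_f hf hS'.2.1 hFc)) (hcase ▸ hbc.2.2.1)
              (hRc ▸ hbc.2.2.2.1)
            rw [h𝓖]
            left
            exact ⟨hSb.toSylow, F, by rw [map_toSylow]; exact hFb, rfl⟩
          · have hltb : Rb < Sb := lt_of_le_of_ne hRbSb hcase
            have hltc : Rc < S' := by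
              refine lt_of_le_of_ne hRcS ?_
              intro h
              have := card_lt_card_of_lt hltb
              rw [cbc, h, cSS] at this
              exact lt_irrefl _ this
            have hRbne : Rb ≠ ⊥ := ne_bot_of_le_ne_bot hD hbc.2.2.1
            have hFne : F ≠ ⊥ := hf1 Rb hbc.1.2.1 hRbne F hFb
            have hFp : IsPGroup p F := hbc.1.2.1.to_le ((hf Rb hbc.1.2.1).1 F hFb).1
            obtain ⟨M', hM', hLM'⟩ := exists_maximalPLocal_ge (p := p)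
              (L := Subgroup.normalizer (F : Set G)) ⟨F, hFp, hFne, rfl⟩
            obtain ⟨Sb', hSb', hSbM', hlt1, c1⟩ := push Rb Sb M' hSb hltb hbc.2.2.1
              (((hf Rb hbc.1.2.1).1 F hFb).2.trans hLM')
            obtain ⟨Sc', hSc', hScM', hlt2, c2⟩ := push Rc S' M' hS' hltc hbc.2.2.2.1
              (((hf Rc hbc.2.1.2.1).1 F hFc).2.trans hLM')
            refine c1.trans (Relation.ReflTransGen.trans ?_ (conn_symm c2))
            have e1 : Nat.card Rb = Nat.card (A ⊓ M : Subgroup G) := hbc.1.card_eq hAM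
            have e2 := card_lt_card_of_lt hlt1
            have e3 : Nat.card (Sb' ⊓ M' : Subgroup G) ≤ Nat.card G := Subgroup.card_le_card_group _
            exact IHm (Nat.card G - Nat.card (Sb' ⊓ M' : Subgroup G)) (by omega) M' Sb' Sc' hM' hSb' hSc'
              hSbM' hScM' (lt_of_le_of_lt hbc.2.2.1 hlt1) (hbc.2.2.2.1.trans hlt2.le) rfl
      exact key _ chain B hB rfl
    · obtain ⟨x, hxM, hx⟩ := hAM.exists_conj_eq hBM
      have hT2 : IsSylIn p (cj x B) ⊤ := by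
        have := hB.cj x
        rwa [cj_top] at this
      have hT2M : cj x B ⊓ M = A ⊓ M := by
        rw [← hx, cj_inf, cj_eq_of_mem hxM]
      have hle : A ⊓ M ≤ cj x B := hT2M ▸ inf_le_left
      refine (IH' (A ⊓ M) A (cj x B) hDA hA hT2 inf_le_left hle).tail ?_
      refine ⟨hT2, hB, hDA.le.trans hle, hDB.trans inf_le_left, M, ?_, hDB.trans inf_le_right,
        hT2M ▸ hAM, hBM, x, hxM, rfl⟩
      rw [h𝓖]
      right
      exact ⟨hM, hreg⟩
  by_cases hAB : A = B
  · rw [hAB]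
  by_cases hDe : D = A ⊓ B
  swap
  · exact IH' (A ⊓ B) A B (lt_of_le_of_ne (le_inf hDA hDB) hDe) hA hB inf_le_left inf_le_right
  have hltA : D < A := by
    refine lt_of_le_of_ne hDA ?_
    intro h
    apply hAB
    have : A ≤ B := by rw [← h]; exact hDB
    exact hA.eq_of_le le_top hB.2.1 this
  have hltB : D < B := by
    refine lt_of_le_of_ne hDB ?_
    intro h
    apply hAB
    have : B ≤ A := by rw [← h]; exact hDA
    exact (hB.eq_of_le le_top hA.2.1 this).symm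
  obtain ⟨M, hM, hLM⟩ := exists_maximalPLocal_ge (p := p)
    (L := Subgroup.normalizer (D : Set G)) ⟨D, hA.2.1.to_le hDA, hD, rfl⟩
  obtain ⟨A1, hA1, hA1M, hlt1, c1⟩ := push D A M hA hltA le_rfl hLM
  obtain ⟨B1, hB1, hB1M, hlt2, c2⟩ := push D B M hB hltB le_rfl hLM
  exact c1.trans ((Q _ M A1 B1 hM hA1 hB1 hA1M hB1M hlt1 hlt2.le rfl).trans (conn_symm c2))

end Cfsg.Agent.Lib.Helper12
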