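import Mathlib
import Cfsg.Agent.Lib.Helper12.Residual
import Cfsg.Agent.Lib.Helper12.Conj
import Cfsg.Agent.Lib.Helper1.Nilp

set_option autoImplicit false

/-! Lifting homomorphisms through central extensions of `p`-groups via transfer. -/

namespace Cfsg.Agent.Lib.Helper12

open Subgroup
open scoped commutatorElement

section lift
variable {G R Q : Type*} [Group G] [Group R] [Group Q]

/-- the pullback of two homomorphisms -/
def pbk (π : G →* Q) (ρ : R →* Q) : Subgroup (G × R) where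
  carrier := {e | π e.1 = ρ e.2}
  mul_mem' := by
    intro a b ha hb
    simp only [Set.mem_ofPred_eq, Prod.fst_mul, Prod.snd_mul, map_mul] at *
    rw [ha, hb]
  one_mem' := by simp
  inv_mem' := by
    intro a ha
    simp only [Set.mem_ofPred_eq, Prod.fst_inv, Prod.snd_inv, map_inv] at *
    rw [ha]

theorem mem_pbk {π : G →* Q} {ρ : R →* Q} {e : G × R} : e ∈ pbk π ρ ↔ π e.1 = ρ e.2 := Iff.rfl

theorem exists_lift_central [Finite G] [Finite R] {p : ℕ} [Fact p.Prime] (hR : IsPGroup p R)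
    (H : Subgroup G) (hH : H.index.Coprime p) (π : G →* Q) (ρ : R →* Q)
    (hρ : ∀ g, ∃ r, ρ r = π g) (hc : ρ.ker ≤ center R) (σ : H →* R)
    (hσ : ∀ h : H, ρ (σ h) = π h) : ∃ ψ : G →* R, ∀ g, ρ (ψ g) = π g := by
  classical
  let _ : CommGroup ρ.ker := { (inferInstance : Group ρ.ker) with
    mul_comm := fun a b => Subtype.ext ((mem_center_iff.mp (hc a.2) b.1).symm) }
  let E := pbk π ρ
  let f1 : E →* G := (MonoidHom.fst G R).comp E.subtype
  have hf1 : Function.Surjective f1 := fun g => by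
    obtain ⟨r, hr⟩ := hρ g
    exact ⟨⟨(g, r), hr.symm⟩, rfl⟩
  let EH : Subgroup E := H.comap f1
  have hidx : EH.index = H.index := index_comap_of_surjective H hf1
  let ϕ : EH →* ρ.ker :=
    { toFun := fun e => ⟨(σ ⟨f1 e.1, e.2⟩)⁻¹ * e.1.1.2, by
        rw [MonoidHom.mem_ker, map_mul, map_inv, hσ]
        have := e.1.2
        rw [mem_pbk] at this
        show (π e.1.1.1)⁻¹ * _ = 1
        rw [this, inv_mul_cancel]⟩
      map_one' := by
        apply Subtype.ext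
        show (σ ⟨f1 1, _⟩)⁻¹ * (1 : R) = 1
        have : (⟨f1 1, (1 : EH).2⟩ : H) = 1 := Subtype.ext (map_one f1)
        rw [this, map_one, inv_one, one_mul]
      map_mul' := by
        intro a b
        apply Subtype.ext
        show (σ ⟨f1 (a.1 * b.1), _⟩)⁻¹ * (a.1.1.2 * b.1.1.2) =
          ((σ ⟨f1 a.1, a.2⟩)⁻¹ * a.1.1.2) * ((σ ⟨f1 b.1, b.2⟩)⁻¹ * b.1.1.2)
        have e1 : (⟨f1 (a.1 * b.1), (a * b).2⟩ : H) = ⟨f1 a.1, a.2⟩ * ⟨f1 b.1, b.2⟩ :=
          Subtype.ext (map_mul f1 _ _)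
        have hz : (σ ⟨f1 a.1, a.2⟩)⁻¹ * a.1.1.2 ∈ center R := by
          apply hc
          rw [MonoidHom.mem_ker, map_mul, map_inv, hσ]
          have := a.1.2
          rw [mem_pbk] at this
          show (π a.1.1.1)⁻¹ * _ = 1
          rw [this, inv_mul_cancel]
        rw [e1, map_mul, mul_inv_rev]
        have := mem_center_iff.mp hz (σ ⟨f1 b.1, b.2⟩)⁻¹
        calc (σ ⟨f1 b.1, b.2⟩)⁻¹ * (σ ⟨f1 a.1, a.2⟩)⁻¹ * (a.1.1.2 * b.1.1.2)
            = ((σ ⟨f1 b.1, b.2⟩)⁻¹ * ((σ ⟨f1 a.1, a.2⟩)⁻¹ * a.1.1.2)) * b.1.1.2 := by group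
          _ = _ := by rw [this]; group }
  have hϕ : ∀ e : EH, f1 e.1 = 1 → (ϕ e : R) = e.1.1.2 := by
    intro e he
    show (σ ⟨f1 e.1, e.2⟩)⁻¹ * e.1.1.2 = _
    have : (⟨f1 e.1, e.2⟩ : H) = 1 := Subtype.ext he
    rw [this, map_one, inv_one, one_mul]
  let V : E →* ρ.ker := MonoidHom.transfer ϕ
  have hV : ∀ (c : ρ.ker) (hm : ((1 : G), (c : R)) ∈ E), V ⟨(1, c.1), hm⟩ = c ^ H.index := by
    intro c hm
    have hcen : ∀ e : E, e * ⟨(1, c.1), hm⟩ = ⟨(1, c.1), hm⟩ * e := by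
      intro e
      apply Subtype.ext
      apply Prod.ext
      · show e.1.1 * 1 = 1 * e.1.1
        rw [mul_one, one_mul]
      · show e.1.2 * c.1 = c.1 * e.1.2
        exact mem_center_iff.mp (hc c.2) _
    have key : ∀ (k : ℕ) (g₀ : E), g₀⁻¹ * (⟨(1, c.1), hm⟩ : E) ^ k * g₀ ∈ EH →
        g₀⁻¹ * (⟨(1, c.1), hm⟩ : E) ^ k * g₀ = (⟨(1, c.1), hm⟩ : E) ^ k := by
      intro k g₀ _
      have : Commute g₀ ((⟨(1, c.1), hm⟩ : E) ^ k) := Commute.pow_right (hcen g₀) k
      rw [mul_assoc, ← this.eq, inv_mul_cancel_left]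
    show MonoidHom.transfer ϕ _ = _
    rw [MonoidHom.transfer_eq_pow ϕ _ key, ← hidx]
    apply Subtype.ext
    have e1 : f1 ((⟨(1, c.1), hm⟩ : E) ^ EH.index) = 1 := by
      rw [map_pow]
      show (1 : G) ^ _ = 1
      rw [one_pow]
    rw [hϕ _ e1]
    simp
  have hcop : (Nat.card R).Coprime H.index := by
    obtain ⟨k, hk⟩ := hR.exists_card_eq
    rw [hk]
    exact (Nat.Coprime.pow_right k hH).symm
  obtain ⟨z, hz⟩ : ∃ z : ℤ, ∀ r : R, (r ^ H.index) ^ z = r :=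
    ⟨_, fun r => (powCoprime hcop).left_inv r⟩
  let W : E →* R := (ρ.ker.subtype.comp (zpowGroupHom z)).comp V
  have hWc : ∀ e, W e ∈ ρ.ker := fun e => ((zpowGroupHom z) (V e)).2
  let Ψ : E →* R :=
    { toFun := fun e => e.1.2 * (W e)⁻¹
      map_one' := by
        show (1 : R) * (W 1)⁻¹ = 1
        rw [map_one, inv_one, one_mul]
      map_mul' := by
        intro a b
        show (a.1.2 * b.1.2) * (W (a * b))⁻¹ = (a.1.2 * (W a)⁻¹) * (b.1.2 * (W b)⁻¹)
        rw [map_mul, mul_inv_rev]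
        have := mem_center_iff.mp ((center R).inv_mem (hc (hWc a))) (b.1.2 * (W b)⁻¹)
        calc a.1.2 * b.1.2 * ((W b)⁻¹ * (W a)⁻¹) = a.1.2 * ((b.1.2 * (W b)⁻¹) * (W a)⁻¹) := by group
          _ = _ := by rw [this]; group }
  have hker : f1.ker ≤ Ψ.ker := by
    intro e he
    rw [MonoidHom.mem_ker] at he ⊢
    have he1 : e.1.1 = 1 := he
    have he2 : e.1.2 ∈ ρ.ker := by
      rw [MonoidHom.mem_ker]
      have := e.2
      rw [mem_pbk, he1, map_one] at this
      exact this.symm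
    have hm : ((1 : G), e.1.2) ∈ E := by
      rw [← he1]; exact e.2
    have e3 : e = ⟨(1, e.1.2), hm⟩ := by
      apply Subtype.ext
      apply Prod.ext
      · exact he1
      · rfl
    have h4 := hV ⟨e.1.2, he2⟩ hm
    show e.1.2 * (W e)⁻¹ = 1
    have h5 : W e = e.1.2 := by
      show (((V e) ^ z : ρ.ker) : R) = _
      rw [e3]
      rw [h4]
      show (((⟨e.1.2, he2⟩ : ρ.ker) ^ H.index) ^ z : ρ.ker).1 = e.1.2
      rw [Subgroup.coe_zpow, Subgroup.coe_pow]
      exact hz _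
    rw [h5, mul_inv_cancel]
  refine ⟨f1.liftOfSurjective hf1 ⟨Ψ, hker⟩, ?_⟩
  intro g
  obtain ⟨e, rfl⟩ := hf1 g
  rw [MonoidHom.liftOfRightInverse_comp_apply]
  show ρ (e.1.2 * (W e)⁻¹) = π e.1.1
  rw [map_mul, map_inv, MonoidHom.mem_ker.mp (hWc e), inv_one, mul_one]
  exact (mem_pbk.mp e.2).symm

theorem map_eq_one_of_mem_pResidual [Finite G] {p : ℕ} [Fact p.Prime] (hR : IsPGroup p R)
    (ψ : G →* R) {g : G} (hg : g ∈ Cfsg.pResidual p G) : ψ g = 1 := by
  have : Cfsg.pResidual p G ≤ ψ.ker := by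
    unfold Cfsg.pResidual
    rw [closure_le]
    intro x hx
    have hx' : (orderOf x).Coprime p := hx
    obtain ⟨k, hk⟩ := hR (ψ x)
    have h1 : orderOf (ψ x) ∣ p ^ k := orderOf_dvd_of_pow_eq_one hk
    have h2 : orderOf (ψ x) ∣ orderOf x := orderOf_map_dvd ψ x
    have h3 : (orderOf (ψ x)).Coprime (p ^ k) :=
      Nat.Coprime.pow_right k (Nat.Coprime.coprime_dvd_left h2 hx')
    have h4 := Nat.Coprime.eq_one_of_dvd h3 h1
    exact orderOf_eq_one_iff.mp h4
  exact this hg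

theorem ker_eq_bot_of_lift [Finite G] [Finite R] {p : ℕ} [Fact p.Prime] (hR : IsPGroup p R)
    (H : Subgroup G) (hH : H.index.Coprime p) (π : G →* Q) (ρ : R →* Q)
    (hπ : π.ker ≤ Cfsg.pResidual p G) (hρ : ∀ g, ∃ r, ρ r = π g) (hρ' : ∀ r, ∃ g, π g = ρ r)
    (hc : ρ.ker ≤ center R) (hd : ρ.ker ≤ commutator R) (σ : H →* R)
    (hσ : ∀ h : H, ρ (σ h) = π h) : ρ.ker = ⊥ := by
  obtain ⟨ψ, hψ⟩ := exists_lift_central hR H hH π ρ hρ hc σ hσ
  have hdec : ∀ r : R, ∃ g : G, ∃ c ∈ ρ.ker, r = ψ g * c := by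
    intro r
    obtain ⟨g, hg⟩ := hρ' r
    refine ⟨g, (ψ g)⁻¹ * r, ?_, by group⟩
    rw [MonoidHom.mem_ker, map_mul, map_inv, hψ, hg, inv_mul_cancel]
  have hcomm : commutator R ≤ ψ.range := by
    rw [commutator_eq_closure, closure_le]
    rintro _ ⟨a, b, rfl⟩
    obtain ⟨g, c, hc', rfl⟩ := hdec a
    obtain ⟨g', c', hc'', rfl⟩ := hdec b
    refine ⟨⁅g, g'⁆, ?_⟩
    rw [map_commutatorElement, commutatorElement_def, commutatorElement_def]
    have h1 := mem_center_iff.mp (hc hc')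
    have h2 := mem_center_iff.mp (hc hc'')
    symm
    calc ψ g * c * (ψ g' * c') * (ψ g * c)⁻¹ * (ψ g' * c')⁻¹
        = ψ g * (c * ψ g') * c' * c⁻¹ * (ψ g)⁻¹ * c'⁻¹ * (ψ g')⁻¹ := by group
      _ = ψ g * ψ g' * (c * c') * c⁻¹ * (ψ g)⁻¹ * c'⁻¹ * (ψ g')⁻¹ := by rw [← h1]; group
      _ = ψ g * ψ g' * (c' * (ψ g)⁻¹) * c'⁻¹ * (ψ g')⁻¹ := by rw [← h1]; group
      _ = ψ g * ψ g' * (ψ g)⁻¹ * (ψ g')⁻¹ := by rw [← h2]; group
  rw [eq_bot_iff]
  intro c hc'
  obtain ⟨g, rfl⟩ := hcomm (hd hc')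
  have : g ∈ π.ker := by rw [MonoidHom.mem_ker, ← hψ]; exact hc'
  exact map_eq_one_of_mem_pResidual hR ψ (hπ this)

end lift

theorem mem_commutator_of_mem_pResidual {G : Type*} [Group G] [Finite G] {p : ℕ} [Fact p.Prime]
    {x : G} (hx : x ∈ Cfsg.pResidual p G) {k : ℕ} (hk : x ^ (p ^ k) = 1) : x ∈ commutator G := by
  have hp : p.Prime := Fact.out
  obtain ⟨a, m, hm, he⟩ := Nat.exists_eq_pow_mul_and_not_dvd (Nat.card_pos (α := G)).ne' p hp.ne_one
  let f : G →* Abelianization G := (powMonoidHom m).comp Abelianization.of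
  have h1 : Cfsg.pResidual p G ≤ f.ker := by
    unfold Cfsg.pResidual
    rw [closure_le]
    intro g hg
    have hg' : (orderOf g).Coprime p := hg
    have h2 : orderOf g ∣ p ^ a * m := he ▸ orderOf_dvd_natCard g
    have h3 : orderOf g ∣ m := Nat.Coprime.dvd_of_dvd_mul_left (Nat.Coprime.pow_right a hg') h2
    show (Abelianization.of g) ^ m = 1
    rw [← map_pow, orderOf_dvd_iff_pow_eq_one.mp h3, map_one]
  have h2 : (Abelianization.of x) ^ m = 1 := h1 hx
  have h3 : (Abelianization.of x) ^ (p ^ k) = 1 := by rw [← map_pow, hk, map_one]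
  have h4 : orderOf (Abelianization.of x) ∣ Nat.gcd m (p ^ k) :=
    Nat.dvd_gcd (orderOf_dvd_of_pow_eq_one h2) (orderOf_dvd_of_pow_eq_one h3)
  have h5 : Nat.gcd m (p ^ k) = 1 :=
    Nat.Coprime.pow_right k ((Nat.Prime.coprime_iff_not_dvd hp).mpr hm).symm
  rw [h5, Nat.dvd_one, orderOf_eq_one_iff] at h4
  rw [← Abelianization.ker_of]
  exact h4

theorem pResidual_subgroup_le {G : Type*} [Group G] {p : ℕ} (H : Subgroup G) :
    Cfsg.pResidual p ↥H ≤ (Cfsg.pResidual p G).subgroupOf H := by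
  conv_lhs => unfold Cfsg.pResidual
  rw [closure_le]
  intro h hh
  have hh' : (orderOf h).Coprime p := hh
  show h ∈ (Cfsg.pResidual p G).subgroupOf H
  rw [mem_subgroupOf]
  apply mem_pResidual
  rwa [Subgroup.orderOf_coe]

/-- **Tate's theorem** (residual form). -/
theorem tate_residual {G : Type*} [Group G] [Finite G] {p : ℕ} [Fact p.Prime] (S : Sylow p G)
    (H : Subgroup G) (hSH : (S : Subgroup G) ≤ H)
    (hfoc : (S : Subgroup G) ⊓ commutator G ≤ ⁅H, H⁆) :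
    (Cfsg.pResidual p G).subgroupOf H ≤ Cfsg.pResidual p ↥H := by
  have hp : p.Prime := Fact.out
  have hNn : (Cfsg.pResidual p G).Normal := pResidual_normal p G
  have hKn : (Cfsg.pResidual p ↥H).Normal := pResidual_normal p ↥H
  obtain ⟨N, hN⟩ : ∃ N, N = Cfsg.pResidual p G := ⟨_, rfl⟩
  obtain ⟨K, hK⟩ : ∃ K, K = Cfsg.pResidual p ↥H := ⟨_, rfl⟩
  have : N.Normal := hN ▸ hNn
  have : K.Normal := hK ▸ hKn
  rw [← hN, ← hK]
  obtain ⟨M, hM⟩ : ∃ M, M = N.subgroupOf H := ⟨_, rfl⟩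
  have : M.Normal := by rw [hM]; infer_instance
  rw [← hM]
  have hKM : K ≤ M := by rw [hK, hM, hN]; exact pResidual_subgroup_le H
  obtain ⟨K₁, hK₁⟩ : ∃ K₁, K₁ = ⁅M, (⊤ : Subgroup ↥H)⁆ ⊔ K := ⟨_, rfl⟩
  have : K₁.Normal := by rw [hK₁]; infer_instance
  have hK₁M : K₁ ≤ M := by rw [hK₁]; exact sup_le (commutator_le_left _ _) hKM
  have hKK₁ : K ≤ K₁ := by rw [hK₁]; exact le_sup_right
  have hR : IsPGroup p (↥H ⧸ K₁) := by
    intro y
    obtain ⟨h, rfl⟩ := QuotientGroup.mk'_surjective K₁ y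
    obtain ⟨k, hk⟩ := exists_pow_mem_pResidual (p := p) h
    refine ⟨k, ?_⟩
    rw [← map_pow]
    exact (QuotientGroup.eq_one_iff _).mpr (hKK₁ (hK ▸ hk))
  have hlift : ∀ x ∈ K₁, ((QuotientGroup.mk' N).comp H.subtype) x = 1 := by
    intro x hx
    have := hK₁M hx
    rw [hM, mem_subgroupOf] at this
    exact (QuotientGroup.eq_one_iff _).mpr this
  let ρ : (↥H ⧸ K₁) →* G ⧸ N := QuotientGroup.lift K₁ ((QuotientGroup.mk' N).comp H.subtype) hlift
  have hρmk : ∀ h : H, ρ (QuotientGroup.mk' K₁ h) = QuotientGroup.mk' N (h : G) := fun h => rfl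
  have hkerρ : ∀ h : H, QuotientGroup.mk' K₁ h ∈ ρ.ker ↔ h ∈ M := by
    intro h
    rw [MonoidHom.mem_ker, hρmk, hM, mem_subgroupOf]
    exact QuotientGroup.eq_one_iff _
  have hidx : H.index.Coprime p := by
    have h1 : H.index ∣ (S : Subgroup G).index := index_dvd_of_le hSH
    have h2 : ¬ p ∣ H.index := fun h => S.not_dvd_index (h.trans h1)
    exact ((Nat.Prime.coprime_iff_not_dvd hp).mpr h2).symm
  have hbot : ρ.ker = ⊥ := by
    apply ker_eq_bot_of_lift hR H hidx (QuotientGroup.mk' N) ρ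
      (by rw [QuotientGroup.ker_mk', hN]) ?_ ?_ ?_ ?_ (QuotientGroup.mk' K₁) hρmk
    · intro g
      obtain ⟨s, hs, r, hr, rfl⟩ := sylow_mul_pResidual S g
      refine ⟨QuotientGroup.mk' K₁ ⟨s, hSH hs⟩, ?_⟩
      have h1 : QuotientGroup.mk' N r = 1 := (QuotientGroup.eq_one_iff r).mpr (hN ▸ hr)
      rw [hρmk, map_mul, h1, mul_one]
    · intro r
      obtain ⟨h, rfl⟩ := QuotientGroup.mk'_surjective K₁ r
      exact ⟨h, (hρmk h).symm⟩
    · intro r hr
      obtain ⟨h, rfl⟩ := QuotientGroup.mk'_surjective K₁ r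
      rw [hkerρ] at hr
      rw [mem_center_iff]
      intro y
      obtain ⟨h', rfl⟩ := QuotientGroup.mk'_surjective K₁ y
      rw [← map_mul, ← map_mul]
      show (QuotientGroup.mk (h' * h) : ↥H ⧸ K₁) = QuotientGroup.mk (h * h')
      rw [QuotientGroup.eq]
      have h1 : ⁅h, h'⁆ ∈ K₁ := by
        rw [hK₁]
        exact (le_sup_left : _ ≤ ⁅M, (⊤ : Subgroup ↥H)⁆ ⊔ K) (commutator_mem_commutator hr (mem_top _))
      have h2 : (h' * h)⁻¹ * (h * h') = (h' * h)⁻¹ * ⁅h, h'⁆ * (h' * h)⁻¹⁻¹ := by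
        rw [commutatorElement_def]; group
      rw [h2]
      exact ‹K₁.Normal›.conj_mem _ h1 _
    · intro r hr
      obtain ⟨h, rfl⟩ := QuotientGroup.mk'_surjective K₁ r
      rw [hkerρ] at hr
      have hSyl : IsSylIn p (S : Subgroup G) H := (isSylIn_top S).of_le hSH le_top
      obtain ⟨s, hs, r, hr', e⟩ := sylow_mul_pResidual hSyl.toSylow h
      rw [hSyl.coe_toSylow, mem_subgroupOf] at hs
      have hrK : r ∈ K := hK ▸ hr'
      have hsM : s ∈ M := by
        have : s = h * r⁻¹ := by rw [e]; group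
        rw [this]
        exact M.mul_mem hr (M.inv_mem (hKM hrK))
      have hsN : (s : G) ∈ Cfsg.pResidual p G := by
        rw [hM, mem_subgroupOf, hN] at hsM
        exact hsM
      obtain ⟨k, hk⟩ := S.2 ⟨(s : G), hs⟩
      have hk' : (s : G) ^ (p ^ k) = 1 := by
        have := congrArg Subtype.val hk
        simpa using this
      have hsc : (s : G) ∈ ⁅H, H⁆ := hfoc ⟨hs, mem_commutator_of_mem_pResidual hsN hk'⟩
      have hsc' : s ∈ commutator ↥H := by
        have h1 : (commutator ↥H).map H.subtype = ⁅H, H⁆ := by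
          rw [_root_.commutator_def, map_commutator, ← MonoidHom.range_eq_map, range_subtype]
        rw [← h1] at hsc
        obtain ⟨s', hs', e'⟩ := hsc
        have : s' = s := Subtype.ext e'
        exact this ▸ hs'
      have h3 : QuotientGroup.mk' K₁ h = QuotientGroup.mk' K₁ s := by
        have h1 : QuotientGroup.mk' K₁ r = 1 := (QuotientGroup.eq_one_iff r).mpr (hKK₁ hrK)
        rw [e, map_mul, h1, mul_one]
      rw [h3]
      have h4 : (commutator ↥H).map (QuotientGroup.mk' K₁) ≤ commutator (↥H ⧸ K₁) := by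
        rw [_root_.commutator_def, map_commutator, _root_.commutator_def]
        exact commutator_mono le_top le_top
      exact h4 (mem_map_of_mem _ hsc')
  have hMK₁ : M ≤ K₁ := by
    intro h hh
    have := (hkerρ h).mpr hh
    rw [hbot, mem_bot] at this
    exact (QuotientGroup.eq_one_iff _).mp this
  have hq : IsPGroup p (↥H ⧸ K) := by
    intro y
    obtain ⟨h, rfl⟩ := QuotientGroup.mk'_surjective K y
    obtain ⟨k, hk⟩ := exists_pow_mem_pResidual (p := p) h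
    refine ⟨k, ?_⟩
    rw [← map_pow]
    exact (QuotientGroup.eq_one_iff _).mpr (hK ▸ hk)
  have hnil : Group.IsNilpotent (↥H ⧸ K) := hq.isNilpotent
  have hMb : M.map (QuotientGroup.mk' K) = ⊥ := by
    apply Cfsg.Agent.Lib.Helper1.eq_bot_of_le_commutator (T := ⊤) inferInstance le_top
    calc M.map (QuotientGroup.mk' K) ≤ K₁.map (QuotientGroup.mk' K) := map_mono hMK₁
      _ = ⁅M.map (QuotientGroup.mk' K), (⊤ : Subgroup ↥H).map (QuotientGroup.mk' K)⁆ := by
          rw [hK₁, Subgroup.map_sup, map_commutator]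
          have : K.map (QuotientGroup.mk' K) = ⊥ := by
            rw [← le_bot_iff, map_le_iff_le_comap]
            intro x hx
            exact (QuotientGroup.eq_one_iff _).mpr hx
          rw [this, sup_bot_eq]
      _ ≤ _ := commutator_mono le_rfl le_top
  intro h hh
  have : QuotientGroup.mk' K h ∈ M.map (QuotientGroup.mk' K) := mem_map_of_mem _ hh
  rw [hMb, mem_bot] at this
  exact (QuotientGroup.eq_one_iff _).mp this

end Cfsg.Agent.Lib.Helper12
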