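import Cfsg.Agent.Lib.Helper12.TateLift
import Cfsg.Agent.Lib.Helper12.Orbit

set_option autoImplicit false

/-! Tate's theorem with the hypothesis modulo maximal subgroups of the Sylow subgroup. -/

namespace Cfsg.Agent.Lib.Helper12

open Subgroup
open scoped commutatorElement

universe u

section lift
variable {G R Q : Type*} [Group G] [Group R] [Group Q]

theorem ker_eq_bot_of_lift' [Finite G] [Finite R] {p : ℕ} [Fact p.Prime] (hR : IsPGroup p R)
    (H : Subgroup G) (hH : H.index.Coprime p) (π : G →* Q) (ρ : R →* Q)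
    (hπ : π.ker ≤ Cfsg.pResidual p G) (hρ : ∀ g, ∃ r, ρ r = π g) (hρ' : ∀ r, ∃ g, π g = ρ r)
    (hc : ρ.ker ≤ center R) (hd : ∀ Y : Subgroup R, Y.Normal → Y.index = p → ρ.ker ≤ Y)
    (σ : H →* R) (hσ : ∀ h : H, ρ (σ h) = π h) : ρ.ker = ⊥ := by
  obtain ⟨ψ, hψ⟩ := exists_lift_central hR H hH π ρ hρ hc σ hσ
  have hdec : ∀ r : R, ∃ g : G, ∃ c ∈ ρ.ker, r = ψ g * c := by
    intro r
    obtain ⟨g, hg⟩ := hρ' r
    refine ⟨g, (ψ g)⁻¹ * r, ?_, by group⟩
    rw [MonoidHom.mem_ker, map_mul, map_inv, hψ, hg, inv_mul_cancel]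
  have htop : ψ.range = ⊤ := by
    by_contra hne
    obtain ⟨Y, hle, hYn, hidx⟩ := exists_normal_index_p hR hne
    have : Y = ⊤ := by
      rw [eq_top_iff]
      intro r _
      obtain ⟨g, c, hc', rfl⟩ := hdec r
      exact Y.mul_mem (hle ⟨g, rfl⟩) (hd Y hYn hidx hc')
    rw [this, index_top] at hidx
    exact (Fact.out : p.Prime).one_lt.ne hidx
  rw [eq_bot_iff]
  intro c hc'
  obtain ⟨g, rfl⟩ : c ∈ ψ.range := htop ▸ mem_top c
  have : g ∈ π.ker := by rw [MonoidHom.mem_ker, ← hψ]; exact hc'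
  exact map_eq_one_of_mem_pResidual hR ψ (hπ this)

end lift

theorem mem_commutator_of_mul_pResidual {G : Type*} [Group G] [Finite G] {p : ℕ} [Fact p.Prime]
    {h n : G} (hh : h ∈ commutator G) (hn : n ∈ Cfsg.pResidual p G) {k : ℕ}
    (hk : (h * n) ^ (p ^ k) = 1) : h * n ∈ commutator G := by
  have hp : p.Prime := Fact.out
  obtain ⟨a, m, hm, he⟩ := Nat.exists_eq_pow_mul_and_not_dvd (Nat.card_pos (α := G)).ne' p hp.ne_one
  let f : G →* Abelianization G := (powMonoidHom m).comp Abelianization.of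
  have h1 : Cfsg.pResidual p G ≤ f.ker := by
    unfold Cfsg.pResidual
    rw [closure_le]
    intro g hg
    have hg' : (orderOf g).Coprime p := hg
    have h2 : orderOf g ∣ p ^ a * m := he ▸ orderOf_dvd_natCard g
    have h3 : orderOf g ∣ m := Nat.Coprime.dvd_of_dvd_mul_left (Nat.Coprime.pow_right a hg') h2
    show (Abelianization.of g) ^ m = 1
    rw [← map_pow, orderOf_dvd_iff_pow_eq_one.mp h3, map_one]
  have h0 : Abelianization.of h = 1 := by
    rw [← MonoidHom.mem_ker, Abelianization.ker_of]; exact hh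
  have h2 : (Abelianization.of (h * n)) ^ m = 1 := by
    rw [map_mul, h0, one_mul]; exact h1 hn
  have h3 : (Abelianization.of (h * n)) ^ (p ^ k) = 1 := by rw [← map_pow, hk, map_one]
  have h4 : orderOf (Abelianization.of (h * n)) ∣ Nat.gcd m (p ^ k) :=
    Nat.dvd_gcd (orderOf_dvd_of_pow_eq_one h2) (orderOf_dvd_of_pow_eq_one h3)
  have h5 : Nat.gcd m (p ^ k) = 1 :=
    Nat.Coprime.pow_right k ((Nat.Prime.coprime_iff_not_dvd hp).mpr hm).symm
  rw [h5, Nat.dvd_one, orderOf_eq_one_iff] at h4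
  rw [← Abelianization.ker_of]
  exact h4

/-- **Tate's theorem** (residual form, hypothesis modulo maximal subgroups). -/
theorem tate_residual' {G : Type u} [Group G] [Finite G] {p : ℕ} [Fact p.Prime] (S : Sylow p G)
    (H : Subgroup G) (hSH : (S : Subgroup G) ≤ H)
    (TH : ∀ (A : Type u) [CommGroup A], Nat.card A = p → ∀ φ : ↥(S : Subgroup G) →* A,
      (∀ t : ↥(S : Subgroup G), (t : G) ∈ ⁅H, H⁆ → φ t = 1) →
      ∀ t : ↥(S : Subgroup G), (t : G) ∈ commutator G → φ t = 1) :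
    (Cfsg.pResidual p G).subgroupOf H ≤ Cfsg.pResidual p ↥H := by
  have hp : p.Prime := Fact.out
  have hNn : (Cfsg.pResidual p G).Normal := pResidual_normal p G
  have hKn : (Cfsg.pResidual p ↥H).Normal := pResidual_normal p ↥H
  obtain ⟨N, hN⟩ : ∃ N, N = Cfsg.pResidual p G := ⟨_, rfl⟩
  obtain ⟨K, hK⟩ : ∃ K, K = Cfsg.pResidual p ↥H := ⟨_, rfl⟩
  have : N.Normal := hN ▸ hNn
  have : K.Normal := hK ▸ hKn
  rw [← hN, ← hK]
  obtain ⟨M, hM⟩ : ∃ M, M = N.subgroupOf H := ⟨_, rfl⟩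
  have : M.Normal := by rw [hM]; infer_instance
  rw [← hM]
  have hKM : K ≤ M := by rw [hK, hM, hN]; exact pResidual_subgroup_le H
  obtain ⟨K₁, hK₁⟩ : ∃ K₁, K₁ = ⁅M, (⊤ : Subgroup ↥H)⁆ ⊔ K := ⟨_, rfl⟩
  have : K₁.Normal := by rw [hK₁]; infer_instance
  have hK₁M : K₁ ≤ M := by rw [hK₁]; exact sup_le (commutator_le_left _ _) hKM
  have hKK₁ : K ≤ K₁ := by rw [hK₁]; exact le_sup_right
  have hR : IsPGroup p (↥H ⧸ K₁) := by
    intro y
    obtain ⟨h, rfl⟩ := QuotientGroup.mk'_surjective K₁ y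
    obtain ⟨k, hk⟩ := exists_pow_mem_pResidual (p := p) h
    refine ⟨k, ?_⟩
    rw [← map_pow]
    exact (QuotientGroup.eq_one_iff _).mpr (hKK₁ (hK ▸ hk))
  have hlift : ∀ x ∈ K₁, ((QuotientGroup.mk' N).comp H.subtype) x = 1 := by
    intro x hx
    have := hK₁M hx
    rw [hM, mem_subgroupOf] at this
    exact (QuotientGroup.eq_one_iff _).mpr this
  let ρ : (↥H ⧸ K₁) →* G ⧸ N := QuotientGroup.lift K₁ ((QuotientGroup.mk' N).comp H.subtype) hlift
  have hρmk : ∀ h : H, ρ (QuotientGroup.mk' K₁ h) = QuotientGroup.mk' N (h : G) := fun h => rfl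
  have hkerρ : ∀ h : H, QuotientGroup.mk' K₁ h ∈ ρ.ker ↔ h ∈ M := by
    intro h
    rw [MonoidHom.mem_ker, hρmk, hM, mem_subgroupOf]
    exact QuotientGroup.eq_one_iff _
  have hidx : H.index.Coprime p := by
    have h1 : H.index ∣ (S : Subgroup G).index := index_dvd_of_le hSH
    have h2 : ¬ p ∣ H.index := fun h => S.not_dvd_index (h.trans h1)
    exact ((Nat.Prime.coprime_iff_not_dvd hp).mpr h2).symm
  have hbot : ρ.ker = ⊥ := by
    apply ker_eq_bot_of_lift' hR H hidx (QuotientGroup.mk' N) ρ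
      (by rw [QuotientGroup.ker_mk', hN]) ?_ ?_ ?_ ?_ (QuotientGroup.mk' K₁) hρmk
    · intro g
      obtain ⟨s, hs, r, hr, rfl⟩ := sylow_mul_pResidual S g
      refine ⟨QuotientGroup.mk' K₁ ⟨s, hSH hs⟩, ?_⟩
      have h1 : QuotientGroup.mk' N r = 1 := (QuotientGroup.eq_one_iff r).mpr (hN ▸ hr)
      rw [hρmk, map_mul, h1, mul_one]
    · intro r
      obtain ⟨h, rfl⟩ := QuotientGroup.mk'_surjective K₁ r
      exact ⟨h, (hρmk h).symm⟩
    · intro r hr
      obtain ⟨h, rfl⟩ := QuotientGroup.mk'_surjective K₁ r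
      rw [hkerρ] at hr
      rw [mem_center_iff]
      intro y
      obtain ⟨h', rfl⟩ := QuotientGroup.mk'_surjective K₁ y
      rw [← map_mul, ← map_mul]
      show (QuotientGroup.mk (h' * h) : ↥H ⧸ K₁) = QuotientGroup.mk (h * h')
      rw [QuotientGroup.eq]
      have h1 : ⁅h, h'⁆ ∈ K₁ := by
        rw [hK₁]
        exact (le_sup_left : _ ≤ ⁅M, (⊤ : Subgroup ↥H)⁆ ⊔ K) (commutator_mem_commutator hr (mem_top _))
      have h2 : (h' * h)⁻¹ * (h * h') = (h' * h)⁻¹ * ⁅h, h'⁆ * (h' * h)⁻¹⁻¹ := by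
        rw [commutatorElement_def]; group
      rw [h2]
      exact ‹K₁.Normal›.conj_mem _ h1 _
    · intro Y hYn hYidx r hr
      obtain ⟨h, rfl⟩ := QuotientGroup.mk'_surjective K₁ r
      rw [hkerρ] at hr
      have hSyl : IsSylIn p (S : Subgroup G) H := (isSylIn_top S).of_le hSH le_top
      obtain ⟨s, hs, r, hr', e⟩ := sylow_mul_pResidual hSyl.toSylow h
      rw [hSyl.coe_toSylow, mem_subgroupOf] at hs
      have hrK : r ∈ K := hK ▸ hr'
      have hsM : s ∈ M := by
        have : s = h * r⁻¹ := by rw [e]; group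
        rw [this]
        exact M.mul_mem hr (M.inv_mem (hKM hrK))
      have hsN : (s : G) ∈ Cfsg.pResidual p G := by
        rw [hM, mem_subgroupOf, hN] at hsM
        exact hsM
      obtain ⟨k, hk⟩ := S.2 ⟨(s : G), hs⟩
      have hk' : (s : G) ^ (p ^ k) = 1 := by
        have := congrArg Subtype.val hk
        simpa using this
      have hsc : (s : G) ∈ commutator G := mem_commutator_of_mem_pResidual hsN hk'
      have h3 : QuotientGroup.mk' K₁ h = QuotientGroup.mk' K₁ s := by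
        have h1 : QuotientGroup.mk' K₁ r = 1 := (QuotientGroup.eq_one_iff r).mpr (hKK₁ hrK)
        rw [e, map_mul, h1, mul_one]
      rw [h3]
      have hcard : Nat.card ((↥H ⧸ K₁) ⧸ Y) = p := hYidx
      have hcyc : IsCyclic ((↥H ⧸ K₁) ⧸ Y) := isCyclic_of_prime_card hcard
      let _ : CommGroup ((↥H ⧸ K₁) ⧸ Y) := IsCyclic.commGroup
      let φ : ↥(S : Subgroup G) →* (↥H ⧸ K₁) ⧸ Y :=
        ((QuotientGroup.mk' Y).comp (QuotientGroup.mk' K₁)).comp (Subgroup.inclusion hSH)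
      have hφ := TH ((↥H ⧸ K₁) ⧸ Y) hcard φ (by
        intro t ht
        have h1 : (commutator ↥H).map H.subtype = ⁅H, H⁆ := by
          rw [_root_.commutator_def, map_commutator, ← MonoidHom.range_eq_map, range_subtype]
        rw [← h1] at ht
        obtain ⟨t', ht', e'⟩ := ht
        have h2 : t' = Subgroup.inclusion hSH t := Subtype.ext e'
        have h4 := Abelianization.commutator_subset_ker
          ((QuotientGroup.mk' Y).comp (QuotientGroup.mk' K₁)) ht'
        rw [h2] at h4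
        exact h4) ⟨(s : G), hs⟩ hsc
      exact (QuotientGroup.eq_one_iff _).mp hφ
  have hMK₁ : M ≤ K₁ := by
    intro h hh
    have := (hkerρ h).mpr hh
    rw [hbot, mem_bot] at this
    exact (QuotientGroup.eq_one_iff _).mp this
  have hq : IsPGroup p (↥H ⧸ K) := by
    intro y
    obtain ⟨h, rfl⟩ := QuotientGroup.mk'_surjective K y
    obtain ⟨k, hk⟩ := exists_pow_mem_pResidual (p := p) h
    refine ⟨k, ?_⟩
    rw [← map_pow]
    exact (QuotientGroup.eq_one_iff _).mpr (hK ▸ hk)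
  have hnil : Group.IsNilpotent (↥H ⧸ K) := hq.isNilpotent
  have hMb : M.map (QuotientGroup.mk' K) = ⊥ := by
    apply Cfsg.Agent.Lib.Helper1.eq_bot_of_le_commutator (T := ⊤) inferInstance le_top
    calc M.map (QuotientGroup.mk' K) ≤ K₁.map (QuotientGroup.mk' K) := map_mono hMK₁
      _ = ⁅M.map (QuotientGroup.mk' K), (⊤ : Subgroup ↥H).map (QuotientGroup.mk' K)⁆ := by
          rw [hK₁, Subgroup.map_sup, map_commutator]
          have : K.map (QuotientGroup.mk' K) = ⊥ := by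
            rw [← le_bot_iff, map_le_iff_le_comap]
            intro x hx
            exact (QuotientGroup.eq_one_iff _).mpr hx
          rw [this, sup_bot_eq]
      _ ≤ _ := commutator_mono le_rfl le_top
  intro h hh
  have : QuotientGroup.mk' K h ∈ M.map (QuotientGroup.mk' K) := mem_map_of_mem _ hh
  rw [hMb, mem_bot] at this
  exact (QuotientGroup.eq_one_iff _).mp this


/-- from equality of residuals to control of transfer. -/
theorem inf_commutator_le_of_residual {G : Type*} [Group G] [Finite G] {p : ℕ} [Fact p.Prime]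
    (S : Sylow p G) (H : Subgroup G) (hSH : (S : Subgroup G) ≤ H)
    (hres : (Cfsg.pResidual p G).subgroupOf H ≤ Cfsg.pResidual p ↥H) :
    (S : Subgroup G) ⊓ commutator G ≤ ⁅H, H⁆ := by
  have hNn : (Cfsg.pResidual p G).Normal := pResidual_normal p G
  rintro x ⟨hxS, hxc⟩
  let π := QuotientGroup.mk' (Cfsg.pResidual p G)
  have hHtop : H.map π = ⊤ := by
    rw [eq_top_iff]
    intro y _
    obtain ⟨g, rfl⟩ := QuotientGroup.mk'_surjective _ y
    obtain ⟨s, hs, r, hr, rfl⟩ := sylow_mul_pResidual S g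
    refine ⟨s, hSH hs, ?_⟩
    have h1 : π r = 1 := (QuotientGroup.eq_one_iff r).mpr hr
    rw [map_mul, h1, mul_one]
  have h1 : π x ∈ (⁅H, H⁆ : Subgroup G).map π := by
    rw [map_commutator, hHtop]
    have h2 : π x ∈ (commutator G).map π := mem_map_of_mem _ hxc
    rw [_root_.commutator_def, map_commutator] at h2
    exact commutator_mono le_top le_top h2
  obtain ⟨h, hh, hhx⟩ := h1
  have hHH : (⁅H, H⁆ : Subgroup G) ≤ H := commutator_le_self H
  have hn : h⁻¹ * x ∈ Cfsg.pResidual p G := by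
    rw [← QuotientGroup.eq_one_iff]
    show π (h⁻¹ * x) = 1
    rw [map_mul, map_inv, hhx, inv_mul_cancel]
  have hnH : h⁻¹ * x ∈ H := H.mul_mem (H.inv_mem (hHH hh)) (hSH hxS)
  have hn' : (⟨h⁻¹ * x, hnH⟩ : ↥H) ∈ Cfsg.pResidual p ↥H := hres (mem_subgroupOf.mpr hn)
  have hmap : (commutator ↥H).map H.subtype = ⁅H, H⁆ := by
    rw [_root_.commutator_def, map_commutator, ← MonoidHom.range_eq_map, range_subtype]
  have hh' : (⟨h, hHH hh⟩ : ↥H) ∈ commutator ↥H := by
    rw [← hmap] at hh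
    obtain ⟨t', ht', e'⟩ := hh
    have : t' = ⟨h, hHH (hmap ▸ ⟨t', ht', e'⟩)⟩ := Subtype.ext e'
    exact this ▸ ht'
  obtain ⟨k, hk⟩ := S.2 ⟨x, hxS⟩
  have hk' : x ^ (p ^ k) = 1 := by
    have := congrArg Subtype.val hk
    simpa using this
  have key := mem_commutator_of_mul_pResidual hh' hn' (k := k) (by
    apply Subtype.ext
    show ((h * (h⁻¹ * x)) ^ (p ^ k) : G) = 1
    rw [mul_inv_cancel_left, hk'])
  rw [← hmap]
  refine ⟨_, key, ?_⟩
  show h * (h⁻¹ * x) = x
  rw [mul_inv_cancel_left]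

theorem tate_commutator {G : Type u} [Group G] [Finite G] {p : ℕ} [Fact p.Prime] (S : Sylow p G)
    (H : Subgroup G) (hSH : (S : Subgroup G) ≤ H)
    (TH : ∀ (A : Type u) [CommGroup A], Nat.card A = p → ∀ φ : ↥(S : Subgroup G) →* A,
      (∀ t : ↥(S : Subgroup G), (t : G) ∈ ⁅H, H⁆ → φ t = 1) →
      ∀ t : ↥(S : Subgroup G), (t : G) ∈ commutator G → φ t = 1) :
    (S : Subgroup G) ⊓ commutator G ≤ ⁅H, H⁆ :=
  inf_commutator_le_of_residual S H hSH (tate_residual' S H hSH TH)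

end Cfsg.Agent.Lib.Helper12
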