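import Mathlib
import Cfsg.Agent.Lib.Helper12.Rel
import Cfsg.Agent.Lib.Helper12.PPrime
import Cfsg.Agent.Lib.Helper27.Trace
import Cfsg.Agent.Lib.Helper9.PStable2

set_option autoImplicit false
set_option linter.unusedSectionVars false

/-! The weakly closed elements of a Sylow subgroup as a direct factor of its centre. -/

namespace Cfsg.Agent.Lib.Helper12

open Cfsg.Agent.Lib.Helper9 (actOn actOn_apply)
open Cfsg.Agent.Lib.Helper27 (fixSub fixSub_direct_factor mem_fixSub)

variable {G : Type*} [Group G] {p : ℕ} [hpF : Fact p.Prime]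

theorem wc_direct_factor [Finite G] (S : Sylow p G) (N Y : Subgroup G) (hSN : (S : Subgroup G) ≤ N)
    (hYS : Y ≤ (S : Subgroup G)) (hYc : ∀ a ∈ Y, ∀ b ∈ Y, a * b = b * a)
    (hNY : N ≤ Subgroup.normalizer (Y : Set G))
    (hZY : (S : Subgroup G) ⊓ Subgroup.centralizer ((S : Subgroup G) : Set G) ≤ Y)
    (hwc : ∀ x ∈ (S : Subgroup G), x ∈ Subgroup.centralizer (N : Set G) →
      ∀ g : G, g * x * g⁻¹ ∈ (S : Subgroup G) → g * x * g⁻¹ = x) :
    ∃ W K : Subgroup G, (∀ x : G, x ∈ W ↔ (x ∈ (S : Subgroup G) ∧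
        ∀ g : G, g * x * g⁻¹ ∈ (S : Subgroup G) → g * x * g⁻¹ = x)) ∧
      K ≤ ((S : Subgroup G) ⊓ Subgroup.centralizer ((S : Subgroup G) : Set G)) ∧ W ⊓ K = ⊥ ∧
      W ⊔ K = ((S : Subgroup G) ⊓ Subgroup.centralizer ((S : Subgroup G) : Set G)) := by
  classical
  let _ : CommGroup Y := { (inferInstance : Group Y) with
    mul_comm := fun a b => Subtype.ext (hYc a a.2 b b.2) }
  let _ : MulDistribMulAction N Y := MulDistribMulAction.compHom Y (actOn Y N hNY)
  have hsmul : ∀ (n : N) (y : Y), ((n • y : Y) : G) = n * y * (n : G)⁻¹ := fun n y => rfl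
  have hcop : ((S : Subgroup G).subgroupOf N).index.Coprime (Nat.card Y) := by
    have h1 : IsSylIn p (S : Subgroup G) N := (isSylIn_top S).of_le hSN le_top
    obtain ⟨k, hk⟩ := IsPGroup.iff_card.mp (S.2.to_le hYS)
    rw [hk]
    apply Nat.Coprime.pow_right
    exact ((Nat.Prime.coprime_iff_not_dvd hpF.out).mpr h1.2.2).symm
  obtain ⟨K', hK1, hK2, hK3⟩ := fixSub_direct_factor (V := Y) (A := N) ((S : Subgroup G).subgroupOf N) hcop
  have hfixT : (fixSub Y ((S : Subgroup G).subgroupOf N)).map Y.subtype =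
      (S : Subgroup G) ⊓ Subgroup.centralizer ((S : Subgroup G) : Set G) := by
    ext x
    constructor
    · rintro ⟨y, hy, rfl⟩
      refine ⟨hYS y.2, ?_⟩
      show (y : G) ∈ Subgroup.centralizer ((S : Subgroup G) : Set G)
      rw [Subgroup.mem_centralizer_iff]
      intro s hs
      have h1 := hy ⟨s, hSN hs⟩ hs
      have h2 : s * (y : G) * s⁻¹ = y := by
        have := congrArg Subtype.val h1
        rwa [hsmul] at this
      exact mul_inv_eq_iff_eq_mul.mp h2
    · intro hx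
      refine ⟨⟨x, hZY hx⟩, ?_, rfl⟩
      intro t ht
      apply Subtype.ext
      rw [hsmul]
      show (t : G) * x * (t : G)⁻¹ = x
      rw [Subgroup.mem_centralizer_iff.mp hx.2 t ht, mul_inv_cancel_right]
  have hfixN : ∀ x : G, x ∈ (fixSub Y (⊤ : Subgroup N)).map Y.subtype ↔
      (x ∈ (S : Subgroup G) ∧ ∀ g : G, g * x * g⁻¹ ∈ (S : Subgroup G) → g * x * g⁻¹ = x) := by
    intro x
    constructor
    · rintro ⟨y, hy, rfl⟩
      refine ⟨hYS y.2, hwc _ (hYS y.2) ?_⟩
      show (y : G) ∈ Subgroup.centralizer (N : Set G)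
      rw [Subgroup.mem_centralizer_iff]
      intro n hn
      have h1 := hy ⟨n, hn⟩ trivial
      have h2 : n * (y : G) * n⁻¹ = y := by
        have := congrArg Subtype.val h1
        rwa [hsmul] at this
      exact mul_inv_eq_iff_eq_mul.mp h2
    · rintro ⟨hxS, hx⟩
      have hxZ : x ∈ (S : Subgroup G) ⊓ Subgroup.centralizer ((S : Subgroup G) : Set G) := by
        refine ⟨hxS, ?_⟩
        show x ∈ Subgroup.centralizer ((S : Subgroup G) : Set G)
        rw [Subgroup.mem_centralizer_iff]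
        intro s hs
        have := hx s ((S : Subgroup G).mul_mem ((S : Subgroup G).mul_mem hs hxS) ((S : Subgroup G).inv_mem hs))
        exact mul_inv_eq_iff_eq_mul.mp this
      refine ⟨⟨x, hZY hxZ⟩, ?_, rfl⟩
      intro n _
      apply Subtype.ext
      rw [hsmul]
      show (n : G) * x * (n : G)⁻¹ = x
      apply hx
      apply hYS
      exact (Subgroup.mem_normalizer_iff.mp (hNY n.2) x).mp (hZY hxZ)
  refine ⟨(fixSub Y (⊤ : Subgroup N)).map Y.subtype, K'.map Y.subtype, hfixN, ?_, ?_, ?_⟩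
  · rw [← hfixT]; exact Subgroup.map_mono hK1
  · rw [← Subgroup.map_inf _ _ _ Y.subtype_injective, hK2, Subgroup.map_bot]
  · rw [← Subgroup.map_sup, hK3, hfixT]

end Cfsg.Agent.Lib.Helper12
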