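import Cfsg.Agent.Lib.Helper12.WPCentric

/-!
Control of strong fusion by a pair of functors `W`, `V` (normalizers of `W(Q)`, centralizers of
`V(Q)`), in terms of chains and lists.
-/

set_option autoImplicit false
set_option linter.unusedSectionVars false
open Cfsg

namespace Cfsg.Agent.Lib.Helper12

variable {G : Type*} [Group G]

/-- steps in `L`: `N_L(W(Q))` or `C_L(V(Q))`, within `Q`. -/
def StWV (W V : Subgroup G → Subgroup G) (L Q : Subgroup G) : Subgroup G → G → Prop :=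
  fun T x => T = Q ∧ (x ∈ L ⊓ Subgroup.normalizer ((W Q : Subgroup G) : Set G) ∨
    x ∈ L ⊓ Subgroup.centralizer ((V Q : Subgroup G) : Set G))

theorem StWV_symm (W V : Subgroup G → Subgroup G) (L Q : Subgroup G) :
    ∀ T x, StWV W V L Q T x → StWV W V L Q T x⁻¹ := by
  rintro T x ⟨h1, hx | hx⟩
  · exact ⟨h1, Or.inl (Subgroup.inv_mem _ hx)⟩
  · exact ⟨h1, Or.inr (Subgroup.inv_mem _ hx)⟩

theorem chainWV_of_list (W V : Subgroup G → Subgroup G) (L Q : Subgroup G) :
    ∀ (l : List G) (X : Set G),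
      (∀ x ∈ l, x ∈ L ⊓ Subgroup.normalizer ((W Q : Subgroup G) : Set G) ∨
        x ∈ L ⊓ Subgroup.centralizer ((V Q : Subgroup G) : Set G)) →
      (∀ k : ℕ, k ≤ l.length → rc (l.take k).prod X ⊆ Q) →
      Chain (StWV W V L Q) X l.prod := by
  intro l
  induction l with
  | nil =>
    intro X _ _
    exact Chain.nil X
  | cons x l ih =>
    intro X hx hk
    rw [List.prod_cons]
    have h0 : X ⊆ Q := by
      have := hk 0 (Nat.zero_le _)
      simpa using this
    have h1 : rc x X ⊆ Q := by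
      have := hk 1 (by simp)
      simpa using this
    refine Chain.cons X Q x l.prod ⟨rfl, hx x (by simp)⟩ h0 h1 (ih (rc x X) ?_ ?_)
    · intro z hz
      exact hx z (List.mem_cons_of_mem _ hz)
    · intro k hkl
      have := hk (k + 1) (by simpa using hkl)
      rw [List.take_succ_cons, List.prod_cons, rc_mul] at this
      exact this

theorem list_of_chainWV (W V : Subgroup G → Subgroup G) (L Q : Subgroup G) {X : Set G} {g : G}
    (h : Chain (StWV W V L Q) X g) (hX : X ⊆ Q) :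
    ∃ l : List G, l.prod = g ∧
      (∀ x ∈ l, x ∈ L ⊓ Subgroup.normalizer ((W Q : Subgroup G) : Set G) ∨
        x ∈ L ⊓ Subgroup.centralizer ((V Q : Subgroup G) : Set G)) ∧
      (∀ k : ℕ, k ≤ l.length → rc (l.take k).prod X ⊆ Q) := by
  induction h with
  | nil A =>
    refine ⟨[], rfl, by simp, ?_⟩
    intro k _
    simpa using hX
  | cons A T x g hst hA hA' _ ih =>
    obtain ⟨hT, hx⟩ := hst
    subst hT
    obtain ⟨l, hl, hmem, hk⟩ := ih hA'
    refine ⟨x :: l, by rw [List.prod_cons, hl], ?_, ?_⟩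
    · intro z hz
      rcases List.mem_cons.mp hz with rfl | hz
      · exact hx
      · exact hmem z hz
    · intro k hkl
      cases k with
      | zero => simpa using hA
      | succ k =>
        rw [List.take_succ_cons, List.prod_cons, rc_mul]
        exact hk k (by simpa using hkl)

/-- `W` with `V` controls strong fusion in `L` with respect to `Q`. -/
def CWV (W V : Subgroup G → Subgroup G) (L Q : Subgroup G) : Prop :=
  ∀ (X : Set G) (a : G), a ∈ L → X ⊆ Q → rc a X ⊆ Q → UpTo (Chain (StWV W V L Q)) X a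

theorem CWV.conj {p : ℕ} {W V : Subgroup G → Subgroup G}
    (hW : Cfsg.IsConjugacyFunctor p W) (hV : Cfsg.IsConjugacyFunctor p V)
    {H T₀ : Subgroup G} (hT₀ : IsPGroup p T₀)
    (h : CWV W V H T₀) {y : G} (hy : y ∈ H) : CWV W V H (cj y T₀) := by
  intro A x hx hA hA'
  have hA₀ : rc y A ⊆ T₀ := by
    have := rc_mono (g := y) hA
    rwa [rc_coe, cj_inv_cj] at this
  have e1 : rc (y⁻¹ * x * y) (rc y A) = rc y (rc x A) := by
    rw [← rc_mul, ← rc_mul]; congr 1; group
  have hA₀' : rc (y⁻¹ * x * y) (rc y A) ⊆ T₀ := by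
    rw [e1]
    have := rc_mono (g := y) hA'
    rwa [rc_coe, cj_inv_cj] at this
  obtain ⟨g', hc, hagree⟩ := h (rc y A) (y⁻¹ * x * y)
    (H.mul_mem (H.mul_mem (H.inv_mem hy) hx) hy) hA₀ hA₀'
  have hc' := hc.conj (St' := StWV W V H (cj y T₀)) y ?_
  · rw [rc_inv_rc] at hc'
    refine ⟨_, hc', ?_⟩
    intro a ha
    have := hagree (y⁻¹ * a * y) ⟨a, ha, rfl⟩
    calc (y * g' * y⁻¹)⁻¹ * a * (y * g' * y⁻¹) = y * (g'⁻¹ * (y⁻¹ * a * y) * g') * y⁻¹ := by group
      _ = y * ((y⁻¹ * x * y)⁻¹ * (y⁻¹ * a * y) * (y⁻¹ * x * y)) * y⁻¹ := by rw [this]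
      _ = x⁻¹ * a * x := by group
  · rintro T z ⟨rfl, hz | hz⟩
    · refine ⟨rfl, Or.inl ⟨H.mul_mem (H.mul_mem hy hz.1) (H.inv_mem hy), ?_⟩⟩
      rw [functor_cj hW hT₀, normalizer_cj]
      exact conj_mem_cj hz.2
    · refine ⟨rfl, Or.inr ⟨H.mul_mem (H.mul_mem hy hz.1) (H.inv_mem hy), ?_⟩⟩
      rw [functor_cj hV hT₀, centralizer_cj]
      exact conj_mem_cj hz.2

end Cfsg.Agent.Lib.Helper12
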